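import Cfsg.Agent.H899.Pt.Env
import Cfsg.Agent.H946.DK.Lin

/-!
# Operators commuting with an element of order `r`, `dim [V, x] = 2 n`, `n = ord_r(q)` even, `q` odd (helper953, S3679)

`gamma` : no `Q₈ ∘ Q₈` commutes with `x` : there are no `a b c d` commuting with `x` with `a² = b² = c² = d² = z`, `z² = 1 ≠ z`,
`a b = z b a`, `c d = z d c`, `c`, `d` commuting with `a`.
-/

set_option autoImplicit false
set_option linter.unusedSectionVars false

namespace Cfsg.Agent.H953.N9

open Module Polynomial Cfsg.Agent.H899.Pt Cfsg.Agent.H946.DK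
open Cfsg.Agent.H951 (fx cm Inv mem_fx)

variable {F : Type*} [Field F] [Fintype F] {V : Type*} [AddCommGroup V] [Module F V] [FiniteDimensional F V] {r n : ℕ}

/-- operators commuting with `x` commute on an irreducible invariant subspace -/
theorem comm_on (hr : RD F r n) {x a b : Module.End F V} (hx : x ^ r = 1) {Z : Submodule F V} (hZ : Inv x Z)
    (hd : finrank F Z = n) (hf : Z ⊓ fx x = ⊥) (ha : Commute a x) (hb : Commute b x) (hZa : Inv a Z) (hZb : Inv b Z) :
    ∀ w ∈ Z, a (b w) = b (a w) := by
  have hn := hr.pos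
  have hZ0 : Z ≠ ⊥ := by
    rintro rfl
    rw [finrank_bot] at hd
    omega
  obtain ⟨v, hv, hv0⟩ := (Submodule.ne_bot_iff _).1 hZ0
  have hcle : cyc x v ≤ Z := by
    intro w hw
    obtain ⟨P, rfl⟩ := mem_cyc.1 hw
    exact hZ.aeval P v hv
  have h1 : n ≤ finrank F (cyc x v) := by
    refine hr.le_finrank hx (inv_cyc v) ?_ ?_
    · rw [eq_bot_iff, ← hf]
      exact inf_le_inf_right _ hcle
    · intro h
      have := self_mem_cyc (x := x) v
      rw [h, Submodule.mem_bot] at this
      exact hv0 this
  have hC : cyc x v = Z := Submodule.eq_of_le_of_finrank_le hcle (by omega)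
  intro w hw
  have hmem : ∀ u ∈ Z, ∃ P : F[X], aeval x P v = u := fun u hu => by
    rw [← hC] at hu
    exact mem_cyc.1 hu
  obtain ⟨R, rfl⟩ := hmem w hw
  obtain ⟨P, hP⟩ := hmem _ (hZa v hv)
  obtain ⟨Q, hQ⟩ := hmem _ (hZb v hv)
  rw [aeval_comm hb, aeval_comm ha, aeval_comm ha, aeval_comm hb, ← hP, ← hQ, aeval_comm ha, aeval_comm hb, ← hP,
    ← hQ, ← Module.End.mul_apply (aeval x Q), ← Module.End.mul_apply (aeval x P), ← map_mul, ← map_mul, mul_comm]

/-- a square root of `-1` in `F[x]` -/
theorem exists_sqrt {x : Module.End F V} (hn : Even n) (hn0 : 0 < n) (h2 : (2 : F) ≠ 0) {g : F[X]}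
    (hg : Irreducible g) (hgn : g.natDegree = n) (hxg : aeval x g = 0) :
    ∃ P : F[X], aeval x P * aeval x P = -1 := by
  have hgf : Fact (Irreducible g) := ⟨hg⟩
  have hfin : Module.Finite F (AdjoinRoot g) := (AdjoinRoot.powerBasis hg.ne_zero).finite
  have hfK : Finite (AdjoinRoot g) := Module.finite_of_finite F
  let _ : Fintype (AdjoinRoot g) := Fintype.ofFinite _
  have hdim : finrank F (AdjoinRoot g) = n := by
    rw [(AdjoinRoot.powerBasis hg.ne_zero).finrank, AdjoinRoot.powerBasis_dim, hgn]
  have hcard : Fintype.card (AdjoinRoot g) = Fintype.card F ^ n := by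
    rw [Module.card_eq_pow_finrank (K := F) (V := AdjoinRoot g), hdim]
  have hodd : Odd (Fintype.card F) := Nat.odd_iff.2 (FiniteField.odd_card_of_char_ne_two (fun h => h2 (by
    have : CharP F 2 := ringChar.of_eq h
    exact_mod_cast CharP.cast_eq_zero F 2)))
  have h4 : Fintype.card (AdjoinRoot g) % 4 ≠ 3 := by
    rw [hcard]
    obtain ⟨k, rfl⟩ := hn
    have h5 : (Fintype.card F) ^ 2 % 4 = 1 := by
      rw [Nat.pow_mod]
      have : Fintype.card F % 4 = 1 ∨ Fintype.card F % 4 = 3 := by
        obtain ⟨j, hj⟩ := hodd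
        omega
      rcases this with h | h <;> rw [h]
    rw [← two_mul, pow_mul, Nat.pow_mod, h5, one_pow]
    norm_num
  obtain ⟨y, hy⟩ := FiniteField.isSquare_neg_one_iff.2 h4
  obtain ⟨P, rfl⟩ := AdjoinRoot.mk_surjective y
  refine ⟨P, ?_⟩
  have h5 : AdjoinRoot.mk g (P * P + 1) = 0 := by
    rw [map_add, map_mul, map_one, ← hy]
    ring
  rw [AdjoinRoot.mk_eq_zero] at h5
  obtain ⟨c, hc⟩ := h5
  have h6 : aeval x (P * P + 1) = 0 := by rw [hc, map_mul, hxg, zero_mul]
  rw [map_add, map_mul, map_one] at h6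
  exact eq_neg_of_add_eq_zero_left h6

theorem commute_aeval {x a : Module.End F V} (ha : Commute a x) (P : F[X]) : Commute a (aeval x P) :=
  LinearMap.ext fun v => aeval_comm ha P v

/-- the homogeneous case -/
theorem gammaZ (hr : RD F r n) (hn : Even n) (h2 : (2 : F) ≠ 0) (hV : finrank F V = 2 * n)
    {x a b c d : Module.End F V} (hx : x ^ r = 1) (hf : fx x = ⊥) (hax : Commute a x) (hbx : Commute b x)
    (hcx : Commute c x) (hdx : Commute d x) (ha : a * a = -1) (hb : b * b = -1) (hc : c * c = -1) (hd : d * d = -1)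
    (hab : a * b = -(b * a)) (hcd : c * d = -(d * c)) (hac : Commute a c) (had : Commute a d) : False := by
  have hn0 := hr.pos
  have hnt : Nontrivial V := by
    rw [← Module.finrank_pos_iff (R := F)]
    omega
  have hrf := Fact.mk hr.prime
  have hneg : ∀ v : V, v = -v → v = 0 := by
    intro v hv
    have h3 : (2 : F) • v = 0 := by
      rw [two_smul]
      nth_rewrite 2 [hv]
      rw [add_neg_cancel]
    exact (smul_eq_zero.1 h3).resolve_left h2
  rcases cyclic_or_homog hr.ne0 hx hf hr.ord hn0 hV with ⟨v, hv⟩ | ⟨g, hg, hgn, hxg⟩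
  · have h3 : Commute a b := commute_of_cyclic hv hax hbx
    obtain ⟨w, hw⟩ := exists_ne (0 : V)
    have h4 : b (a w) = 0 := hneg _ (by
      have h5 : (a * b) w = -(b * a) w := by rw [hab]; rfl
      rw [h3.eq] at h5
      exact h5)
    apply hw
    have h5 : (a * (b * b) * a) w = 0 := by
      show a (b (b (a w))) = 0
      rw [h4, map_zero, map_zero]
    rw [hb, mul_neg, mul_one, neg_mul, ha, neg_neg] at h5
    exact h5
  · obtain ⟨P, hP⟩ := exists_sqrt hn hn0 h2 hg hgn hxg
    obtain ⟨i, hi⟩ : ∃ i, i = aeval x P := ⟨_, rfl⟩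
    rw [← hi] at hP
    have hix : ∀ {e : Module.End F V}, Commute e x → Commute e i := fun he => by
      rw [hi]
      exact commute_aeval he P
    have app : ∀ {e f : Module.End F V}, Commute e f → ∀ v, e (f v) = f (e v) := fun h v =>
      LinearMap.congr_fun h.eq v
    have hii : ∀ v, i (i v) = -v := fun v => LinearMap.congr_fun hP v
    have haa : ∀ v, a (a v) = -v := fun v => LinearMap.congr_fun ha v
    have hbb : ∀ v, b (b v) = -v := fun v => LinearMap.congr_fun hb v
    have hab' : ∀ v, a (b v) = -(b (a v)) := fun v => LinearMap.congr_fun hab v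
    -- the eigenspaces
    let W : Submodule F V := LinearMap.ker (a - i)
    let W' : Submodule F V := LinearMap.ker (a + i)
    have hW : ∀ v, v ∈ W ↔ a v = i v := fun v => by
      rw [LinearMap.mem_ker, LinearMap.sub_apply, sub_eq_zero]
    have hW' : ∀ v, v ∈ W' ↔ a v = -(i v) := fun v => by
      rw [LinearMap.mem_ker, LinearMap.add_apply, add_eq_zero_iff_eq_neg]
    have hbinj : Function.Injective b := fun u v huv => by
      have := congrArg b huv
      rw [hbb, hbb] at this
      exact neg_injective this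
    have hle : ∀ {A B : Submodule F V}, (∀ v ∈ A, b v ∈ B) → finrank F A ≤ finrank F B := by
      intro A B h
      refine LinearMap.finrank_le_finrank_of_injective (f := b.restrict h) fun u v huv => ?_
      exact Subtype.ext (hbinj (congrArg Subtype.val huv))
    have h3 : finrank F W ≤ finrank F W' := hle fun v hv => by
      rw [hW'] 
      rw [hW] at hv
      rw [hab', hv, app (hix hbx)]
    have h4 : finrank F W' ≤ finrank F W := hle fun v hv => by
      rw [hW]
      rw [hW'] at hv
      rw [hab', hv, map_neg, neg_neg, app (hix hbx)]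
    have hinf : W ⊓ W' = ⊥ := by
      rw [eq_bot_iff]
      rintro v ⟨hv, hv'⟩
      rw [SetLike.mem_coe, hW] at hv
      rw [SetLike.mem_coe, hW'] at hv'
      have h5 := hneg _ (hv.symm.trans hv')
      rw [Submodule.mem_bot, ← neg_eq_zero, ← hii, h5, map_zero]
    have hsup : W ⊔ W' = ⊤ := by
      rw [eq_top_iff]
      intro v _
      have h5 : v - a (i v) ∈ W := by
        rw [hW, map_sub, map_sub, haa, ← app (hix hax), hii, map_neg]
        abel
      have h6 : v + a (i v) ∈ W' := by
        rw [hW', map_add, map_add, haa, ← app (hix hax), hii, map_neg]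
        abel
      have h7 : v = (2 : F)⁻¹ • ((v - a (i v)) + (v + a (i v))) := by
        rw [show (v - a (i v)) + (v + a (i v)) = (2 : F) • v by rw [two_smul]; abel, smul_smul,
          inv_mul_cancel₀ h2, one_smul]
      rw [h7]
      exact Submodule.smul_mem _ _ (Submodule.add_mem_sup h5 h6)
    have hdim : finrank F W = n := by
      have h5 := H951.finrank_sup_of_disj hinf
      rw [hsup, finrank_top, hV] at h5
      omega
    have hInv : ∀ {e : Module.End F V}, Commute a e → Commute e x → Inv e W := by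
      intro e hae hex v hv
      rw [hW] at hv ⊢
      rw [app hae, hv, app (hix hex)]
    have h5 := comm_on hr hx (Z := W) (hInv hax (Commute.refl x)) hdim (by rw [hf, inf_bot_eq]) hcx hdx
      (hInv hac hcx) (hInv had hdx)
    have hW0 : W ≠ ⊥ := by
      intro h
      rw [h, finrank_bot] at hdim
      omega
    obtain ⟨w, hw, hw0⟩ := (Submodule.ne_bot_iff _).1 hW0
    have h6 : c (d w) = -(d (c w)) := LinearMap.congr_fun hcd w
    have h7 : d (c w) = 0 := hneg _ ((h5 w hw).symm.trans h6)
    apply hw0
    have h8 : (c * (d * d) * c) w = 0 := by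
      show c (d (d (c w))) = 0
      rw [h7, map_zero, map_zero]
    rw [hd, mul_neg, mul_one, neg_mul, hc, neg_neg] at h8
    exact h8

/-- **no `Q₈ ∘ Q₈` in the centralizer** -/
theorem gamma (hr : RD F r n) (hn : Even n) (h2 : (2 : F) ≠ 0) (hV : finrank F V ≤ 2 * n + 1)
    {x a b c d z : Module.End F V} (hx : x ^ r = 1) (hcm : finrank F (cm x) = 2 * n) (hax : Commute a x)
    (hbx : Commute b x) (hcx : Commute c x) (hdx : Commute d x) (ha : a * a = z) (hb : b * b = z) (hc : c * c = z)
    (hd : d * d = z) (hz : z * z = 1) (hz1 : z ≠ 1) (hab : a * b = z * (b * a)) (hcd : c * d = z * (d * c))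
    (hac : Commute a c) (had : Commute a d) : False := by
  have hn0 := hr.pos
  have hneg : ∀ v : V, v = -v → v = 0 := by
    intro v hv
    have h3 : (2 : F) • v = 0 := by
      rw [two_smul]
      nth_rewrite 2 [hv]
      rw [add_neg_cancel]
    exact (smul_eq_zero.1 h3).resolve_left h2
  have app : ∀ {e f : Module.End F V}, Commute e f → ∀ v, e (f v) = f (e v) := fun h v =>
    LinearMap.congr_fun h.eq v
  have hzx : Commute z x := by rw [← ha]; exact hax.mul_left hax
  have hza : Commute a z := by rw [← ha]; exact (Commute.refl a).mul_right (Commute.refl a)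
  have hzb : Commute b z := by rw [← hb]; exact (Commute.refl b).mul_right (Commute.refl b)
  have hzz : ∀ v, z (z v) = v := fun v => LinearMap.congr_fun hz v
  have haa : ∀ v, a (a v) = z v := fun v => LinearMap.congr_fun ha v
  have hbb : ∀ v, b (b v) = z v := fun v => LinearMap.congr_fun hb v
  have hab' : ∀ v, a (b v) = z (b (a v)) := fun v => LinearMap.congr_fun hab v
  have hInvc : ∀ {e : Module.End F V}, Commute e x → Inv e (cm x) := by
    intro e he w hw
    obtain ⟨u, rfl⟩ := H951.mem_cm.1 hw
    exact H951.mem_cm.2 ⟨e u, by rw [map_sub, app he]⟩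
  have hInvf : ∀ {e : Module.End F V}, Commute e x → Inv e (fx x) := by
    intro e he w hw
    rw [mem_fx] at hw ⊢
    rw [← app he, hw]
  have hcomp := H951.isCompl_fx_cm hr.ne0 hx
  have hfd := H951.finrank_fx_add_cm hr.ne0 hx
  -- the fixed space
  have hfz : ∀ v ∈ fx x, z v = v := by
    intro v hv
    by_cases hv0 : v = 0
    · rw [hv0, map_zero]
    have h1 : finrank F (fx x) ≤ 1 := by omega
    have key : ∀ e : Module.End F V, Commute e x → ∃ t : F, e v = t • v := by
      intro e he
      obtain ⟨u, hu⟩ := finrank_le_one_iff.1 h1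
      obtain ⟨t, ht⟩ := hu ⟨v, hv⟩
      obtain ⟨s, hs⟩ := hu ⟨e v, hInvf he v hv⟩
      have ht' : t • (u : V) = v := congrArg Subtype.val ht
      have hs' : s • (u : V) = e v := congrArg Subtype.val hs
      have ht0 : t ≠ 0 := by
        rintro rfl
        rw [zero_smul] at ht'
        exact hv0 ht'.symm
      exact ⟨s * t⁻¹, by rw [← hs', ← ht', smul_smul, mul_assoc, inv_mul_cancel₀ ht0, mul_one]⟩
    obtain ⟨t, ht⟩ := key a hax
    obtain ⟨s, hs⟩ := key b hbx
    have h3 : a (b v) = b (a v) := by rw [hs, ht, map_smul, map_smul, hs, ht, smul_comm]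
    have h4 : b (a v) = z (b (a v)) := by rw [← hab', h3]
    have h5 : b (a v) = b (a (z v)) := by
      rw [h4, ← app hzb, ← app hza]
    have h6 : z (z (z v)) = z (z v) := by
      have h7 := congrArg (fun w => a (b w)) h5
      simp only [hbb] at h7
      rw [app hza, app hza, haa, haa] at h7
      exact h7.symm
    rwa [hzz, hzz] at h6
  -- the negative part
  let N : Submodule F V := LinearMap.ker (z + 1)
  have hN : ∀ v, v ∈ N ↔ z v = -v := fun v => by
    rw [LinearMap.mem_ker, LinearMap.add_apply, Module.End.one_apply, add_eq_zero_iff_eq_neg]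
  have hInvN : ∀ {e : Module.End F V}, Commute e z → Inv e N := by
    intro e he v hv
    rw [hN] at hv ⊢
    rw [← app he, hv, map_neg]
  have hNf : N ⊓ fx x = ⊥ := by
    rw [eq_bot_iff]
    rintro v ⟨hv, hv'⟩
    rw [SetLike.mem_coe, hN, hfz v hv'] at hv
    exact hneg v hv
  have hNcm : N ≤ cm x := by
    have h3 := H951.inf_fx_sup_inf_cm hr.ne0 hx (hInvN hzx.symm)
    rw [hNf, bot_sup_eq] at h3
    exact inf_eq_left.1 h3
  have hN0 : N ≠ ⊥ := by
    intro h
    apply hz1
    apply LinearMap.ext
    intro v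
    have h3 : z v - v ∈ N := by rw [hN, map_sub, hzz]; abel
    rw [h, Submodule.mem_bot, sub_eq_zero] at h3
    exact h3
  have hdv : n ∣ finrank F N := hr.dvd hx (hInvN hzx.symm) hNf
  have hle : n ≤ finrank F N := hr.le_finrank hx (hInvN hzx.symm) hNf hN0
  have hle2 : finrank F N ≤ 2 * n := hcm ▸ Submodule.finrank_mono hNcm
  have hcases : finrank F N = n ∨ finrank F N = 2 * n := by
    obtain ⟨k, hk⟩ := hdv
    have h3 : k ≤ 2 := by
      by_contra hcon
      have : n * 3 ≤ n * k := Nat.mul_le_mul_left n (by omega)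
      omega
    interval_cases k
    · omega
    · left; omega
    · right; omega
  rcases hcases with h3 | h3
  · obtain ⟨w, hw, hw0⟩ := (Submodule.ne_bot_iff _).1 hN0
    have h4 := comm_on hr hx (hInvN hzx.symm) h3 hNf hax hbx (hInvN hza) (hInvN hzb) w hw
    have h5 : z (b (a w)) = -(b (a w)) := (hN _).1 (hInvN hzb _ (hInvN hza _ hw))
    have h6 : b (a w) = 0 := hneg _ (by rw [← h5, ← hab', h4])
    apply hw0
    have h7 : a (b (b (a w))) = 0 := by rw [h6, map_zero, map_zero]
    rw [hbb, app hza, haa, hzz] at h7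
    exact h7
  · have hNe : N = cm x := Submodule.eq_of_le_of_finrank_eq hNcm (by omega)
    have hzU : ∀ v ∈ cm x, z v = -v := fun v hv => (hN v).1 (by rw [hNe]; exact hv)
    have mk : ∀ {e : Module.End F V} (he : Commute e x), ∃ e' : Module.End F (cm x), ∀ v : cm x,
        (e' v : V) = e v := fun he => ⟨LinearMap.restrict _ (hInvc he), fun v => rfl⟩
    obtain ⟨x', hx'⟩ := mk (Commute.refl x)
    obtain ⟨a', ha'⟩ := mk hax
    obtain ⟨b', hb'⟩ := mk hbx
    obtain ⟨c', hc'⟩ := mk hcx
    obtain ⟨d', hd'⟩ := mk hdx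
    have hpow : ∀ (k : ℕ) (v : cm x), ((x' ^ k) v : V) = (x ^ k) v := by
      intro k
      induction k with
      | zero => intro v; rfl
      | succ k ih =>
        intro v
        rw [pow_succ', pow_succ', Module.End.mul_apply, Module.End.mul_apply, hx', ih]
    refine gammaZ hr hn h2 hcm (x := x') (a := a') (b := b') (c := c') (d := d') ?_ ?_ ?_ ?_ ?_ ?_ ?_ ?_ ?_ ?_ ?_ ?_
      ?_ ?_
    · refine LinearMap.ext fun v => Subtype.ext ?_
      rw [hpow, hx]
      rfl
    · rw [eq_bot_iff]
      intro v hv
      rw [mem_fx] at hv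
      have h4 : (v : V) ∈ fx x := by
        rw [mem_fx, ← hx', hv]
      rw [Submodule.mem_bot]
      apply Subtype.ext
      have h5 : (v : V) ∈ fx x ⊓ cm x := ⟨h4, v.2⟩
      rwa [hcomp.inf_eq_bot, Submodule.mem_bot] at h5
    · refine LinearMap.ext fun v => Subtype.ext ?_
      rw [Module.End.mul_apply, Module.End.mul_apply, ha', hx', hx', ha', app hax]
    · refine LinearMap.ext fun v => Subtype.ext ?_
      rw [Module.End.mul_apply, Module.End.mul_apply, hb', hx', hx', hb', app hbx]
    · refine LinearMap.ext fun v => Subtype.ext ?_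
      rw [Module.End.mul_apply, Module.End.mul_apply, hc', hx', hx', hc', app hcx]
    · refine LinearMap.ext fun v => Subtype.ext ?_
      rw [Module.End.mul_apply, Module.End.mul_apply, hd', hx', hx', hd', app hdx]
    · refine LinearMap.ext fun v => Subtype.ext ?_
      rw [Module.End.mul_apply, ha', ha', haa, hzU _ v.2]
      rfl
    · refine LinearMap.ext fun v => Subtype.ext ?_
      rw [Module.End.mul_apply, hb', hb', hbb, hzU _ v.2]
      rfl
    · refine LinearMap.ext fun v => Subtype.ext ?_
      rw [Module.End.mul_apply, hc', hc', show c (c (v : V)) = z v from LinearMap.congr_fun hc _, hzU _ v.2]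
      rfl
    · refine LinearMap.ext fun v => Subtype.ext ?_
      rw [Module.End.mul_apply, hd', hd', show d (d (v : V)) = z v from LinearMap.congr_fun hd _, hzU _ v.2]
      rfl
    · refine LinearMap.ext fun v => Subtype.ext ?_
      rw [Module.End.mul_apply, ha', hb', hab', ← ha', ← hb', hzU _ (b' (a' v)).2]
      rfl
    · refine LinearMap.ext fun v => Subtype.ext ?_
      rw [Module.End.mul_apply, hc', hd', show c (d (v : V)) = z (d (c v)) from LinearMap.congr_fun hcd _, ← hc', ← hd',
        hzU _ (d' (c' v)).2]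
      rfl
    · refine LinearMap.ext fun v => Subtype.ext ?_
      rw [Module.End.mul_apply, Module.End.mul_apply, ha', hc', hc', ha', app hac]
    · refine LinearMap.ext fun v => Subtype.ext ?_
      rw [Module.End.mul_apply, Module.End.mul_apply, ha', hd', hd', ha', app had]

end Cfsg.Agent.H953.N9
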