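import Cfsg.Agent.H953.Cyc.O8h

/-!
# `Q₈ ∘ Q₈` in `Ω₄⁺(q)`, `q` odd (helper953, S3679)

* `sq4` : the form `x₀² + x₁² + x₂² + x₃²`, of plus type (`isPlus_sq4`), nondegenerate (`nondeg_sq4`);
* `exists_q8` : left and right multiplications by quaternions.
-/

set_option autoImplicit false
set_option linter.unusedSectionVars false

namespace Cfsg.Agent.H953.N9

open Subgroup Module QuadraticMap Matrix Cfsg.Agent.LieClassical.OrthCore Cfsg.Agent.H955 Cfsg.Agent.H953.O8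
open scoped MatrixGroups Matrix

universe u

variable {F : Type u} [Field F] [Fintype F]

variable (F) in
/-- the sum of four squares -/
noncomputable def sq4 : QuadraticForm F (Fin 4 → F) := QuadraticMap.weightedSumSquares F (fun _ : Fin 4 => (1 : F))

omit [Fintype F] in
theorem sq4_apply (v : Fin 4 → F) : sq4 F v = v ⬝ᵥ v := by
  rw [sq4, QuadraticMap.weightedSumSquares_apply, dotProduct]
  exact Finset.sum_congr rfl fun i _ => by rw [one_smul]

omit [Fintype F] in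
theorem polar_sq4 (v w : Fin 4 → F) : polar (sq4 F) v w = 2 * (v ⬝ᵥ w) := by
  rw [polar, sq4_apply, sq4_apply, sq4_apply, add_dotProduct, dotProduct_add, dotProduct_add, dotProduct_comm w v]
  ring

omit [Fintype F] in
theorem nondeg_sq4 (h2 : (2 : F) ≠ 0) : Nondeg (sq4 F) := by
  intro v hv
  funext i
  have h := hv (Pi.single i 1)
  rw [polar_sq4, dotProduct_single, mul_one] at h
  exact (mul_eq_zero.1 h).resolve_left h2

theorem exists_sum_sq : ∃ α β : F, α ^ 2 + β ^ 2 = -1 := by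
  obtain ⟨p, hchar⟩ := CharP.exists F
  have hp : Fact p.Prime := ⟨CharP.char_is_prime F p⟩
  obtain ⟨a, b, hab⟩ := ZMod.sq_add_sq p (-1)
  refine ⟨ZMod.castHom dvd_rfl F a, ZMod.castHom dvd_rfl F b, ?_⟩
  rw [← map_pow, ← map_pow, ← map_add, hab, map_neg, map_one]

theorem isPlus_sq4 : IsPlus (sq4 F) := by
  obtain ⟨α, β, h⟩ := exists_sum_sq (F := F)
  let L : (Fin 2 → F) →ₗ[F] (Fin 4 → F) :=
    { toFun := fun v => ![v 0, v 1, v 0 * α - v 1 * β, v 0 * β + v 1 * α]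
      map_add' := fun v w => by
        funext i
        fin_cases i <;> simp <;> ring
      map_smul' := fun c v => by
        funext i
        fin_cases i <;> simp <;> ring }
  have hL : Function.Injective L := by
    intro v w hvw
    funext i
    fin_cases i
    · exact congrFun hvw 0
    · exact congrFun hvw 1
  refine ⟨LinearMap.range L, ?_, ?_⟩
  · rintro _ ⟨v, rfl⟩
    show sq4 F ![v 0, v 1, v 0 * α - v 1 * β, v 0 * β + v 1 * α] = 0
    rw [sq4_apply]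
    simp only [dotProduct, Fin.sum_univ_four, Matrix.cons_val_zero, Matrix.cons_val_one, Matrix.cons_val]
    linear_combination (v 0 ^ 2 + v 1 ^ 2) * h
  · rw [LinearMap.finrank_range_of_inj hL, Module.finrank_fintype_fun_eq_card, Module.finrank_fintype_fun_eq_card]
    rfl

/-- an orthogonal integer matrix as an isometry -/
noncomputable def iso (F : Type u) [Field F] (A : Matrix (Fin 4) (Fin 4) ℤ) (hA : Aᵀ * A = 1) :
    Cfsg.isometryGroup F ⇑(sq4 F) :=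
  have h : (A.map (Int.cast : ℤ → F))ᵀ * A.map (Int.cast : ℤ → F) = 1 := by
    rw [← Matrix.transpose_map, ← Matrix.map_mul_intCast, hA, Matrix.map_one _ Int.cast_zero Int.cast_one]
  ⟨⟨A.map (Int.cast : ℤ → F), (A.map (Int.cast : ℤ → F))ᵀ, mul_eq_one_comm.1 h, h⟩,
    H925.mem_iso_iff.2 fun v => by
      show sq4 F ((A.map (Int.cast : ℤ → F)) *ᵥ v) = sq4 F v
      rw [sq4_apply, sq4_apply, Matrix.dotProduct_mulVec, ← Matrix.mulVec_transpose, Matrix.mulVec_mulVec, h,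
        Matrix.one_mulVec]⟩

theorem iso_mul {A B C : Matrix (Fin 4) (Fin 4) ℤ} (hA : Aᵀ * A = 1) (hB : Bᵀ * B = 1) (hC : Cᵀ * C = 1)
    (h : A * B = C) : iso F A hA * iso F B hB = iso F C hC := by
  apply Subtype.ext
  apply Units.ext
  show A.map (Int.cast : ℤ → F) * B.map (Int.cast : ℤ → F) = C.map (Int.cast : ℤ → F)
  rw [← Matrix.map_mul_intCast, h]

theorem iso_inv {A : Matrix (Fin 4) (Fin 4) ℤ} (hA : Aᵀ * A = 1) (hA' : Aᵀᵀ * Aᵀ = 1) :
    (iso F A hA)⁻¹ = iso F Aᵀ hA' := by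
  rw [inv_eq_iff_mul_eq_one, iso_mul hA hA' (C := 1) (by rw [Matrix.transpose_one, one_mul])
    (mul_eq_one_comm.1 hA)]
  apply Subtype.ext
  apply Units.ext
  show (1 : Matrix (Fin 4) (Fin 4) ℤ).map (Int.cast : ℤ → F) = 1
  rw [Matrix.map_one _ Int.cast_zero Int.cast_one]

def LI : Matrix (Fin 4) (Fin 4) ℤ := !![0, -1, 0, 0; 1, 0, 0, 0; 0, 0, 0, -1; 0, 0, 1, 0]
def LJ : Matrix (Fin 4) (Fin 4) ℤ := !![0, 0, -1, 0; 0, 0, 0, 1; 1, 0, 0, 0; 0, -1, 0, 0]
def LK : Matrix (Fin 4) (Fin 4) ℤ := !![0, 0, 0, -1; 0, 0, -1, 0; 0, 1, 0, 0; 1, 0, 0, 0]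
def RI : Matrix (Fin 4) (Fin 4) ℤ := !![0, -1, 0, 0; 1, 0, 0, 0; 0, 0, 0, 1; 0, 0, -1, 0]
def RJ : Matrix (Fin 4) (Fin 4) ℤ := !![0, 0, -1, 0; 0, 0, 0, -1; 1, 0, 0, 0; 0, 1, 0, 0]
def RK : Matrix (Fin 4) (Fin 4) ℤ := !![0, 0, 0, -1; 0, 0, 1, 0; 0, -1, 0, 0; 1, 0, 0, 0]
def SG : Matrix (Fin 4) (Fin 4) ℤ := !![1, 0, 0, 0; 0, 1, 0, 0; 0, 0, 0, -1; 0, 0, 1, 0]
def TA : Matrix (Fin 4) (Fin 4) ℤ := !![1, 0, 0, 0; 0, 0, 0, 1; 0, 0, 1, 0; 0, -1, 0, 0]
def MO : Matrix (Fin 4) (Fin 4) ℤ := -1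

theorem mem_omega {A B C : Matrix (Fin 4) (Fin 4) ℤ} (hA : Aᵀ * A = 1) (hB : Bᵀ * B = 1) (hC : Cᵀ * C = 1)
    (hA' : Aᵀᵀ * Aᵀ = 1) (hB' : Bᵀᵀ * Bᵀ = 1) (h1 : (A * B)ᵀ * (A * B) = 1) (h2 : (A * B * Aᵀ)ᵀ * (A * B * Aᵀ) = 1)
    (h : A * B * Aᵀ * Bᵀ = C) : iso F C hC ∈ Cfsg.Omega F ⇑(sq4 F) := by
  have h3 : iso F C hC = iso F A hA * iso F B hB * (iso F A hA)⁻¹ * (iso F B hB)⁻¹ := by
    rw [iso_inv hA hA', iso_inv hB hB', iso_mul hA hB h1 rfl, iso_mul h1 hA' h2 rfl, iso_mul h2 hB' hC h]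
  rw [h3]
  exact Subgroup.commutator_mem_commutator (Subgroup.mem_top _) (Subgroup.mem_top _)

theorem mem_li : iso F LI (by decide) ∈ Cfsg.Omega F ⇑(sq4 F) :=
  mem_omega (A := SG) (B := LJ) (by decide) (by decide) (by decide) (by decide) (by decide) (by decide) (by decide)
    (by decide)

theorem mem_lj : iso F LJ (by decide) ∈ Cfsg.Omega F ⇑(sq4 F) :=
  mem_omega (A := TA) (B := LK) (by decide) (by decide) (by decide) (by decide) (by decide) (by decide) (by decide)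
    (by decide)

theorem mem_ri : iso F RIᵀ (by decide) ∈ Cfsg.Omega F ⇑(sq4 F) :=
  mem_omega (A := SG) (B := RJ) (by decide) (by decide) (by decide) (by decide) (by decide) (by decide) (by decide)
    (by decide)

theorem mem_rj : iso F RJᵀ (by decide) ∈ Cfsg.Omega F ⇑(sq4 F) :=
  mem_omega (A := TA) (B := RK) (by decide) (by decide) (by decide) (by decide) (by decide) (by decide) (by decide)
    (by decide)

/-- **`Q₈ ∘ Q₈`** -/
theorem exists_q8 : ∃ a b c d z : Cfsg.isometryGroup F ⇑(sq4 F), a ∈ Cfsg.Omega F ⇑(sq4 F) ∧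
    b ∈ Cfsg.Omega F ⇑(sq4 F) ∧ c ∈ Cfsg.Omega F ⇑(sq4 F) ∧ d ∈ Cfsg.Omega F ⇑(sq4 F) ∧ a * a = z ∧ b * b = z ∧
    c * c = z ∧ d * d = z ∧ z * z = 1 ∧ a * b = z * (b * a) ∧ c * d = z * (d * c) ∧ a * c = c * a ∧ a * d = d * a ∧
    ∀ v, R (sq4 F) z v = -v := by
  have hone : iso F 1 (by decide) = 1 := by
    apply Subtype.ext
    apply Units.ext
    show (1 : Matrix (Fin 4) (Fin 4) ℤ).map (Int.cast : ℤ → F) = 1
    rw [Matrix.map_one _ Int.cast_zero Int.cast_one]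
  have key : ∀ {A B A' B' : Matrix (Fin 4) (Fin 4) ℤ} (hA : Aᵀ * A = 1) (hB : Bᵀ * B = 1) (hA' : A'ᵀ * A' = 1)
      (hB' : B'ᵀ * B' = 1) (h1 : (A * B)ᵀ * (A * B) = 1), A * B = A' * B' →
      iso F A hA * iso F B hB = iso F A' hA' * iso F B' hB' := by
    intro A B A' B' hA hB hA' hB' h1 h
    rw [iso_mul hA hB h1 rfl, iso_mul hA' hB' h1 h.symm]
  refine ⟨iso F LI (by decide), iso F LJ (by decide), iso F RIᵀ (by decide), iso F RJᵀ (by decide),
    iso F MO (by decide), mem_li, mem_lj, mem_ri, mem_rj, iso_mul _ _ _ (by decide), iso_mul _ _ _ (by decide),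
    iso_mul _ _ _ (by decide), iso_mul _ _ _ (by decide), ?_, ?_, ?_, ?_, ?_, ?_⟩
  · rw [iso_mul _ _ (C := 1) (by decide) (by decide), hone]
  · rw [iso_mul (A := LJ) (B := LI) (C := LJ * LI) (by decide) (by decide) (by decide) rfl]
    exact key (A := LI) (B := LJ) (A' := MO) (B' := LJ * LI) (by decide) (by decide) (by decide) (by decide) (by decide)
      (by decide)
  · rw [iso_mul (A := RJᵀ) (B := RIᵀ) (C := RJᵀ * RIᵀ) (by decide) (by decide) (by decide) rfl]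
    exact key (A := RIᵀ) (B := RJᵀ) (A' := MO) (B' := RJᵀ * RIᵀ) (by decide) (by decide) (by decide) (by decide)
      (by decide) (by decide)
  · exact key (A := LI) (B := RIᵀ) (A' := RIᵀ) (B' := LI) (by decide) (by decide) (by decide) (by decide) (by decide)
      (by decide)
  · exact key (A := LI) (B := RJᵀ) (A' := RJᵀ) (B' := LI) (by decide) (by decide) (by decide) (by decide) (by decide)
      (by decide)
  · intro v
    rw [H501.RowOmega.rho_apply]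
    show (MO.map (Int.cast : ℤ → F)) *ᵥ v = -v
    have h1 : MO.map (Int.cast : ℤ → F) = -1 := by
      rw [MO, Matrix.map_neg _ Int.cast_neg, Matrix.map_one _ Int.cast_zero Int.cast_one]
    rw [h1, Matrix.neg_mulVec, Matrix.one_mulVec]

end Cfsg.Agent.H953.N9
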