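import Cfsg.Agent.H884.ElRows
import Cfsg.Agent.H583.PFixed

/-!
# `p`-groups of isometries commuting with an element of order `ppd(q, 4)` in dimension 8 (helper953, S3679)

* `card_le_sq` : such a group has order at most `q ^ 2`.
-/

set_option autoImplicit false

namespace Cfsg.Agent.H953.O8

open Module QuadraticMap Cfsg.Agent.LieClassical.OrthCore Cfsg.Agent.H955 Cfsg.Agent.H954.TSing Cfsg.Agent.H884.El
open Cfsg.Agent.H951 (fx cm Inv)

universe u v

variable {F : Type u} [Field F] [Fintype F] {V : Type v} [AddCommGroup V] [Module F V] [FiniteDimensional F V]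
  {Q : QuadraticForm F V} {x : Module.End F V} {r : ℕ}

/-- invariant subspaces have dimension divisible by 4 -/
theorem four_dvd (hx : Iso Q x r) (hr : PP (Nat.card F) 4 r) (hcm : cm x = ⊤) {W : Submodule F V} (hW : Inv x W) :
    4 ∣ finrank F W := by
  have := hx.dvd hr hW
  rwa [hcm, inf_top_eq] at this

/-- a proper nonzero invariant subspace has dimension 4 -/
theorem finrank_eq (hx : Iso Q x r) (hr : PP (Nat.card F) 4 r) (hV : finrank F V = 8) (hcm : cm x = ⊤)
    {W : Submodule F V} (hW : Inv x W) (h0 : W ≠ ⊥) (h1 : W ≠ ⊤) : finrank F W = 4 := by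
  have h2 := four_dvd hx hr hcm hW
  have h3 : finrank F W ≠ 0 := fun h => h0 (Submodule.finrank_eq_zero.1 h)
  have h4 : finrank F W < 8 := by
    rw [← hV]
    exact Submodule.finrank_lt h1
  omega

/-- **`p`-groups of isometries commuting with `x`.** -/
theorem card_le_sq (hx : Iso Q x r) (hr : PP (Nat.card F) 4 r) (hQ : Nondeg Q) (hV : finrank F V = 8)
    (hcm : cm x = ⊤) {p : ℕ} [Fact p.Prime] [CharP F p] {G : Type*} [Group G] [Finite G] (hG : IsPGroup p G)
    (ρ : G →* Module.End F V) (hρ : Function.Injective ρ) (hiso : ∀ g v, Q (ρ g v) = Q v)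
    (hcomm : ∀ g v, ρ g (x v) = x (ρ g v)) : Nat.card G ≤ Nat.card F ^ 2 := by
  classical
  have hfV : Finite V := Module.finite_of_finite F
  have hone : ∀ v, ρ 1 v = v := fun v => by rw [map_one]; rfl
  have hmul : ∀ a b v, ρ (a * b) v = ρ a (ρ b v) := fun a b v => by rw [map_mul]; rfl
  have hpol : ∀ g u v, polar Q (ρ g u) (ρ g v) = polar Q u v := by
    intro g u v
    simp only [polar, ← map_add, hiso]
  have hxpol : ∀ u v, polar Q (x u) (x v) = polar Q u v := by
    intro u v
    simp only [polar, ← map_add, hx.iso]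
  by_cases hG1 : ∀ g : G, g = 1
  · have : Subsingleton G := ⟨fun a b => by rw [hG1 a, hG1 b]⟩
    rw [Nat.card_unique]
    exact Nat.one_le_pow _ _ Nat.card_pos
  push Not at hG1
  obtain ⟨g0, hg0⟩ := hG1
  have hVtop : (⊤ : Submodule F V) ≠ ⊥ := by
    intro h
    have h1 : finrank F (⊤ : Submodule F V) = 8 := by rw [finrank_top, hV]
    rw [h, finrank_bot] at h1
    omega
  -- the fixed space
  let L : Submodule F V :=
    { carrier := {v | ∀ g, ρ g v = v}
      add_mem' := fun {a b} ha hb g => by rw [map_add, ha g, hb g]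
      zero_mem' := fun g => map_zero _
      smul_mem' := fun c v hv g => by rw [map_smul, hv g] }
  have hLx : Inv x L := fun v hv g => by rw [hcomm, hv g]
  have hL0 : L ≠ ⊥ := by
    obtain ⟨v, -, hv0, hv⟩ := H583.PFixed.exists_fixed hG ρ ⊤ (fun _ _ _ => Submodule.mem_top) hVtop
    intro h
    apply hv0
    have : v ∈ L := hv
    rwa [h, Submodule.mem_bot] at this
  have hfxne : ∀ g : G, g ≠ 1 → fx (ρ g) ≠ ⊤ := by
    intro g hg h
    apply hg
    apply hρ
    apply LinearMap.ext
    intro v
    have h1 : v ∈ fx (ρ g) := by rw [h]; trivial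
    rw [H951.mem_fx.1 h1, map_one]
    rfl
  have hLfx : ∀ g : G, L ≤ fx (ρ g) := fun g v hv => H951.mem_fx.2 (hv g)
  have hfxx : ∀ g : G, Inv x (fx (ρ g)) := fun g v hv => by
    rw [H951.mem_fx] at hv ⊢
    rw [hcomm, hv]
  have hcmx : ∀ g : G, Inv x (cm (ρ g)) := fun g v hv => by
    obtain ⟨w, rfl⟩ := H951.mem_cm.1 hv
    exact H951.mem_cm.2 ⟨x w, by rw [hcomm, map_sub]⟩
  have hfxg : ∀ g : G, g ≠ 1 → finrank F (fx (ρ g)) = 4 := fun g hg =>
    finrank_eq hx hr hV hcm (hfxx g) (fun h => hL0 (le_bot_iff.1 (h ▸ hLfx g))) (hfxne g hg)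
  have hL4 : finrank F L = 4 :=
    finrank_eq hx hr hV hcm hLx hL0 (fun h => hfxne g0 hg0 (top_le_iff.1 (h ▸ hLfx g0)))
  have hfxL : ∀ g : G, g ≠ 1 → fx (ρ g) = L := fun g hg =>
    (Submodule.eq_of_le_of_finrank_eq (hLfx g) (by rw [hL4, hfxg g hg])).symm
  have hcmL : ∀ g : G, g ≠ 1 → cm (ρ g) = L := by
    intro g hg
    have h1 : finrank F (cm (ρ g)) + finrank F (fx (ρ g)) = 8 := by
      rw [← hV]
      exact LinearMap.finrank_range_add_finrank_ker (ρ g - 1)
    have h2 : cm (ρ g) ≠ ⊥ := by
      intro h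
      rw [h, finrank_bot, hfxg g hg] at h1
      omega
    -- a fixed vector in the commutator space
    have h3 : cm (ρ g) ⊓ fx (ρ g) ≠ ⊥ := by
      obtain ⟨v, hv, hv0, hv1⟩ := H583.PFixed.exists_fixed (P := Subgroup.zpowers g) (hG.to_subgroup _)
        (ρ.comp (Subgroup.subtype _)) (cm (ρ g)) (by
          rintro ⟨_, k, rfl⟩ v hv
          obtain ⟨w, rfl⟩ := H951.mem_cm.1 hv
          refine H951.mem_cm.2 ⟨ρ (g ^ k) w, ?_⟩
          show ρ g (ρ (g ^ k) w) - ρ (g ^ k) w = ρ (g ^ k) (ρ g w - w)
          rw [map_sub, ← hmul, ← hmul, ← zpow_one_add, ← zpow_add_one, add_comm]) h2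
      intro h
      apply hv0
      have : v ∈ cm (ρ g) ⊓ fx (ρ g) := ⟨hv, H951.mem_fx.2 (hv1 ⟨g, Subgroup.mem_zpowers g⟩)⟩
      rwa [h, Submodule.mem_bot] at this
    have h4 : finrank F ↥(cm (ρ g) ⊓ fx (ρ g)) = 4 :=
      finrank_eq hx hr hV hcm ((hcmx g).inf (hfxx g)) h3 (fun h =>
        hfxne g hg (top_le_iff.1 (h ▸ inf_le_right)))
    have h5 : cm (ρ g) ⊓ fx (ρ g) = fx (ρ g) :=
      Submodule.eq_of_le_of_finrank_eq inf_le_right (by rw [h4, hfxg g hg])
    have h6 : cm (ρ g) ⊓ fx (ρ g) = cm (ρ g) :=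
      Submodule.eq_of_le_of_finrank_eq inf_le_left (by rw [h4]; have := hfxg g hg; omega)
    rw [← h6, h5, hfxL g hg]
  have hcmL' : ∀ g v, ρ g v - v ∈ L := by
    intro g v
    by_cases hg : g = 1
    · subst hg
      rw [hone, sub_self]
      exact L.zero_mem
    · rw [← hcmL g hg]
      exact H951.mem_cm.2 ⟨v, rfl⟩
  -- `L` is totally singular
  have hBL : ∀ u ∈ L, ∀ w ∈ L, polar Q u w = 0 := by
    intro u hu w hw
    rw [← hcmL g0 hg0] at hw
    obtain ⟨v, rfl⟩ := H951.mem_cm.1 hw
    rw [polar_sub_right, sub_eq_zero]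
    conv_lhs => rw [← hu g0]
    exact hpol g0 u v
  have hQL : ∀ u ∈ L, Q u = 0 := by
    by_cases h2 : (2 : F) = 0
    · -- characteristic 2
      let Z : Submodule F V :=
        { carrier := {v | v ∈ L ∧ Q v = 0}
          add_mem' := fun {a b} ha hb => ⟨L.add_mem ha.1 hb.1, by
            rw [QuadraticMap.map_add Q, ha.2, hb.2, hBL a ha.1 b hb.1, add_zero, add_zero]⟩
          zero_mem' := ⟨L.zero_mem, QuadraticMap.map_zero Q⟩
          smul_mem' := fun c v hv => ⟨L.smul_mem c hv.1, by rw [QuadraticMap.map_smul, hv.2, smul_zero]⟩ }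
      have hZx : Inv x Z := fun v hv => ⟨hLx v hv.1, by rw [hx.iso]; exact hv.2⟩
      have hZL : Z ≤ L := fun v hv => hv.1
      have h4 := four_dvd hx hr hcm hZx
      have h5 : Z ≠ ⊥ := by
        intro hZ
        have hinj : Function.Injective (fun u : L => Q (u : V)) := by
          intro a b hab
          have hab' : Q (a : V) = Q (b : V) := hab
          have h6 : (a : V) - b ∈ Z := by
            refine ⟨L.sub_mem a.2 b.2, ?_⟩
            rw [sub_eq_add_neg, QuadraticMap.map_add Q, QuadraticMap.map_neg, hBL _ a.2 _ (L.neg_mem b.2), hab',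
              add_zero, ← two_mul, h2, zero_mul]
          rw [hZ, Submodule.mem_bot, sub_eq_zero] at h6
          exact Subtype.ext h6
        have h7 := Nat.card_le_card_of_injective _ hinj
        rw [Module.natCard_eq_pow_finrank (K := F) (V := L), hL4] at h7
        have h8 : 1 < Nat.card F := Finite.one_lt_card
        have h9 : Nat.card F ^ 1 < Nat.card F ^ 4 := Nat.pow_lt_pow_right h8 (by norm_num)
        rw [pow_one] at h9
        omega
      have h6 : finrank F Z ≠ 0 := fun h => h5 (Submodule.finrank_eq_zero.1 h)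
      have h7 : finrank F Z ≤ finrank F L := Submodule.finrank_mono hZL
      have h8 : Z = L := Submodule.eq_of_le_of_finrank_eq hZL (by omega)
      intro u hu
      rw [← h8] at hu
      exact hu.2
    · intro u hu
      have h3 := hBL u hu u hu
      rw [polar_self] at h3
      rw [nsmul_eq_mul] at h3
      rcases mul_eq_zero.1 h3 with h4 | h4
      · exact absurd (by exact_mod_cast h4) h2
      · exact h4
  have hLtop : L ≠ ⊤ := by
    intro h
    rw [h, finrank_top, hV] at hL4
    omega
  obtain ⟨w, hw⟩ : ∃ w, w ∉ L := by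
    by_contra hcon
    push Not at hcon
    exact hLtop (eq_top_iff.2 fun v _ => hcon v)
  -- `y = x⁻¹`
  obtain ⟨y, hxy⟩ : ∃ y : Module.End F V, ∀ v, x (y v) = v := by
    refine ⟨x ^ (r - 1), fun v => ?_⟩
    rw [← Module.End.mul_apply, ← pow_succ', Nat.sub_add_cancel hx.prime.one_le, hx.pow]
    rfl
  let A : Submodule F V := L ⊔ Submodule.span F {w}
  let C : Submodule F V := A ⊔ Submodule.span F {x w + y w}
  have hwA : w ∈ A := (le_sup_right : _ ≤ A) (Submodule.mem_span_singleton_self w)
  have hLA : L ≤ A := le_sup_left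
  have hyC : x w + y w ∈ C := (le_sup_right : _ ≤ C) (Submodule.mem_span_singleton_self _)
  have hAC : A ≤ C := le_sup_left
  have hA5 : 5 ≤ finrank F A := by
    have h1 : L < A := lt_of_le_of_ne hLA (fun h => hw (h ▸ hwA))
    have h2 := Submodule.finrank_lt_finrank_of_lt h1
    omega
  have hC6 : 6 ≤ finrank F C := by
    have h1 : A < C := by
      refine lt_of_le_of_ne hAC (fun h => ?_)
      have h2 : x w + y w ∈ A := h ▸ hyC
      -- `x`-invariance
      let D : Submodule F V := L ⊔ Submodule.span F {w, x w}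
      have hLD : L ≤ D := le_sup_left
      have hwD : w ∈ D := (le_sup_right : _ ≤ D) (Submodule.subset_span (by simp))
      have hxwD : x w ∈ D := (le_sup_right : _ ≤ D) (Submodule.subset_span (by simp))
      have hxA : ∀ v ∈ A, x v ∈ D := by
        intro v hv
        obtain ⟨a, ha, b, hb, rfl⟩ := Submodule.mem_sup.1 hv
        obtain ⟨c, rfl⟩ := Submodule.mem_span_singleton.1 hb
        rw [map_add, map_smul]
        exact D.add_mem (hLD (hLx a ha)) (D.smul_mem c hxwD)
      have hxxw : x (x w) ∈ D := by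
        have h3 := hxA _ h2
        rw [map_add, hxy] at h3
        have h4 := D.sub_mem h3 hwD
        rwa [add_sub_cancel_right] at h4
      have hDx : Inv x D := by
        intro v hv
        obtain ⟨a, ha, b, hb, rfl⟩ := Submodule.mem_sup.1 hv
        obtain ⟨c, d, rfl⟩ := Submodule.mem_span_pair.1 hb
        rw [map_add, map_add, map_smul, map_smul]
        exact D.add_mem (hLD (hLx a ha)) (D.add_mem (D.smul_mem c hxwD) (D.smul_mem d hxxw))
      have hDle : finrank F D ≤ 6 := by
        have h5 := Submodule.finrank_add_le_finrank_add_finrank L (Submodule.span F {w, x w})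
        have h6 : finrank F (Submodule.span F ({w, x w} : Set V)) ≤ 2 := by
          have h7 := finrank_span_finset_le_card (R := F) ({w, x w} : Finset V)
          rw [Finset.coe_pair] at h7
          exact h7.trans Finset.card_le_two
        have h8 : finrank F D ≤ finrank F L + finrank F (Submodule.span F ({w, x w} : Set V)) := h5
        omega
      have hD4 : finrank F D = 4 := by
        apply finrank_eq hx hr hV hcm hDx
        · intro h
          exact hL0 (le_bot_iff.1 (h ▸ hLD))
        · intro h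
          rw [h, finrank_top, hV] at hDle
          omega
      have hDL : L = D := Submodule.eq_of_le_of_finrank_eq hLD (by rw [hL4, hD4])
      exact hw (hDL ▸ hwD)
    have h2 := Submodule.finrank_lt_finrank_of_lt h1
    omega
  have hU2 : finrank F (perp Q C) ≤ 2 := by
    have := finrank_add_perp hQ C
    omega
  -- the map
  have hmem : ∀ g, ρ g w - w ∈ perp Q C := by
    intro g
    obtain ⟨u, hu⟩ : ∃ u, u = ρ g w - w := ⟨_, rfl⟩
    rw [← hu]
    have huL : u ∈ L := by rw [hu]; exact hcmL' g w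
    have hgw : ρ g w = w + u := by rw [hu]; abel
    have h1 : polar Q w u = 0 := by
      have h2 := hiso g w
      rw [hgw, QuadraticMap.map_add Q, hQL u huL, add_zero] at h2
      exact add_eq_left.1 h2
    have h2 : polar Q (x w + y w) u = 0 := by
      have h3 := hpol g w (x w)
      rw [hcomm, hgw, map_add, polar_add_left, polar_add_right, polar_add_right, hBL u huL (x u) (hLx u huL),
        add_zero, add_assoc] at h3
      have h4 := add_eq_left.1 h3
      rw [polar_add_left, add_comm, polar_comm Q (x w) u, ← hxpol (y w) u, hxy]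
      exact h4
    rw [mem_perp]
    intro c hc
    obtain ⟨a, ha, b, hb, rfl⟩ := Submodule.mem_sup.1 hc
    obtain ⟨c1, rfl⟩ := Submodule.mem_span_singleton.1 hb
    obtain ⟨a1, ha1, b1, hb1, rfl⟩ := Submodule.mem_sup.1 ha
    obtain ⟨c2, rfl⟩ := Submodule.mem_span_singleton.1 hb1
    rw [polar_add_left, polar_add_left, polar_smul_left, polar_smul_left, hBL a1 ha1 u huL, h1, h2, smul_zero,
      smul_zero, add_zero, add_zero]
  have hinj : Function.Injective (fun g : G => (⟨ρ g w - w, hmem g⟩ : perp Q C)) := by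
    intro g h hgh
    have h1 : ρ g w - w = ρ h w - w := congrArg Subtype.val hgh
    have h2 : ρ g w = ρ h w := sub_left_injective h1
    by_contra hne
    have h3 : h⁻¹ * g ≠ 1 := fun h4 => hne (inv_mul_eq_one.1 h4).symm
    apply hw
    rw [← hfxL _ h3, H951.mem_fx, hmul, h2, ← hmul, inv_mul_cancel, hone]
  have h1 := Nat.card_le_card_of_injective _ hinj
  rw [Module.natCard_eq_pow_finrank (K := F) (V := perp Q C)] at h1
  exact h1.trans (Nat.pow_le_pow_right Nat.card_pos hU2)

end Cfsg.Agent.H953.O8
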