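import Cfsg.Agent.H953.Cyc.O8a
import Cfsg.Agent.H955.QMinus
import Cfsg.Agent.H925.OrthBasic
import Cfsg.Agent.S0300

/-!
# Perfect groups of isometries commuting with an element of order `ppd(q, 4)` with a 4-dimensional commutator space
(helper953, S3679)

* `perfect_trivial` : a perfect group commuting with `x` is trivial on `[V, x]` if that has dimension 4;
* `exists_minus_hom` : such a group embeds in `Ω₄⁻(q)` if `V` has dimension 8 and plus type.
-/

set_option autoImplicit false

namespace Cfsg.Agent.H953.O8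

open Module QuadraticMap Cfsg.Agent.LieClassical.OrthCore Cfsg.Agent.H955 Cfsg.Agent.H954.TSing Cfsg.Agent.H884.El
open Cfsg.Agent.H951 (fx cm Inv)
open scoped MatrixGroups Matrix Polynomial

universe u v

variable {F : Type u} [Field F] [Fintype F] {V : Type v} [AddCommGroup V] [Module F V] [FiniteDimensional F V]
  {Q : QuadraticForm F V} {x : Module.End F V} {r : ℕ}

/-- a perfect group commuting with `x` is trivial on the irreducible commutator space -/
theorem perfect_trivial (hx : Iso Q x r) (hr : PP (Nat.card F) 4 r) (hcm : finrank F (cm x) = 4)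
    {G : Type*} [Group G] (hG : commutator G = ⊤) (ρ : G →* Module.End F V)
    (hcomm : ∀ g v, ρ g (x v) = x (ρ g v)) : ∀ g, ∀ v ∈ cm x, ρ g v = v := by
  intro g v hv
  by_cases hv0 : v = 0
  · rw [hv0, map_zero]
  have hone : ∀ v, ρ 1 v = v := fun v => by rw [map_one]; rfl
  have hmul : ∀ a b v, ρ (a * b) v = ρ a (ρ b v) := fun a b v => by rw [map_mul]; rfl
  -- the cyclic subspace generated by `v`
  let C : Submodule F V := LinearMap.range ((LinearMap.applyₗ v).comp (Polynomial.aeval x).toLinearMap :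
    F[X] →ₗ[F] V)
  have hC : ∀ a : V, a ∈ C ↔ ∃ f : F[X], Polynomial.aeval x f v = a := fun a => Iff.rfl
  have hCx : Inv x C := by
    intro a ha
    obtain ⟨f, rfl⟩ := (hC a).1 ha
    refine (hC _).2 ⟨Polynomial.X * f, ?_⟩
    rw [map_mul, Polynomial.aeval_X]
    rfl
  have hvC : v ∈ C := (hC v).2 ⟨1, by rw [map_one]; rfl⟩
  have hCcm : C ≤ cm x := by
    intro a ha
    obtain ⟨f, rfl⟩ := (hC a).1 ha
    exact (H951.inv_cm (x := x)).aeval f v hv
  have hC4 : C = cm x := by
    have h1 := hx.dvd hr hCx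
    rw [inf_eq_left.2 hCcm] at h1
    have h2 : finrank F C ≠ 0 := by
      intro h
      rw [Submodule.finrank_eq_zero] at h
      rw [h] at hvC
      exact hv0 ((Submodule.mem_bot F).1 hvC)
    have h3 := Submodule.finrank_mono hCcm
    exact Submodule.eq_of_le_of_finrank_eq hCcm (by omega)
  have hgf : ∀ (g : G) (f : F[X]) (a : V), ρ g (Polynomial.aeval x f a) = Polynomial.aeval x f (ρ g a) := by
    intro g f a
    induction f using Polynomial.induction_on' generalizing a with
    | add p q hp hq => rw [map_add, LinearMap.add_apply, LinearMap.add_apply, map_add, hp, hq]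
    | monomial n c =>
      rw [Polynomial.aeval_monomial, Module.End.mul_apply, Module.End.mul_apply, Module.algebraMap_end_apply,
        Module.algebraMap_end_apply, map_smul]
      congr 1
      induction n generalizing a with
      | zero => rfl
      | succ n ih => rw [pow_succ, Module.End.mul_apply, Module.End.mul_apply, ih, hcomm]
  have hgC : ∀ g : G, ∃ f : F[X], Polynomial.aeval x f v = ρ g v := by
    intro g
    have h1 : ρ g v ∈ cm x := by
      obtain ⟨w, rfl⟩ := H951.mem_cm.1 hv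
      exact H951.mem_cm.2 ⟨ρ g w, by rw [map_sub, hcomm]⟩
    rw [← hC4] at h1
    exact (hC _).1 h1
  have hab : ∀ g h : G, ρ (g * h) v = ρ (h * g) v := by
    intro g h
    obtain ⟨f1, h1⟩ := hgC g
    obtain ⟨f2, h2⟩ := hgC h
    rw [hmul, hmul, ← h1, ← h2, hgf, hgf, ← h1, ← h2, ← Module.End.mul_apply, ← Module.End.mul_apply,
      ← map_mul, ← map_mul, mul_comm]
  -- the stabilizer of `v`
  let K : Subgroup G :=
    { carrier := {g | ρ g v = v}
      mul_mem' := fun {a b} ha hb => by
        show ρ (a * b) v = v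
        rw [hmul, show ρ b v = v from hb, show ρ a v = v from ha]
      one_mem' := hone v
      inv_mem' := fun {a} ha => by
        show ρ a⁻¹ v = v
        have h1 : ρ a v = v := ha
        conv_lhs => rw [← h1]
        rw [← hmul, inv_mul_cancel, hone] }
  have hK : commutator G ≤ K := by
    rw [commutator_def, Subgroup.commutator_le]
    intro a _ b _
    change ρ (a * b * a⁻¹ * b⁻¹) v = v
    rw [mul_assoc, hmul, hab a⁻¹ b⁻¹, ← hmul]
    have : a * b * (b⁻¹ * a⁻¹) = 1 := by group
    rw [this, hone]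
  exact hK (hG ▸ Subgroup.mem_top g)

/-- **the embedding in `Ω₄⁻(q)`.** -/
theorem exists_minus_hom (hx : Iso Q x r) (hr : PP (Nat.card F) 4 r) (hQ : Nondeg Q) (hV : finrank F V = 8)
    (hP : IsPlus Q) (hcm : finrank F (cm x) = 4) {G : Type*} [Group G] (hG : commutator G = ⊤)
    (ρ : G →* Module.End F V) (hρ : Function.Injective ρ) (hiso : ∀ g v, Q (ρ g v) = Q v)
    (hcomm : ∀ g v, ρ g (x v) = x (ρ g v)) :
    ∃ a b : F, (∀ z₁ z₂ : F, z₁ ^ 2 + a * z₁ * z₂ + b * z₂ ^ 2 = 0 → z₁ = 0 ∧ z₂ = 0) ∧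
      ∃ φ : G →* Cfsg.Omega F (Cfsg.quadFormMinus 1 F a b), Function.Injective φ := by
  classical
  have := Fact.mk hr.prime
  have htriv := perfect_trivial hx hr hcm hG ρ hcomm
  have hone : ∀ v, ρ 1 v = v := fun v => by rw [map_one]; rfl
  have hmul : ∀ a b v, ρ (a * b) v = ρ a (ρ b v) := fun a b v => by rw [map_mul]; rfl
  obtain ⟨a, b, hab⟩ := exists_aniso_coeff F
  refine ⟨a, b, hab, ?_⟩
  -- the fixed space
  have hadd := hx.finrank_add
  have h4 : finrank F (fx x) = 4 := by omega
  have hfn : Nondeg (res Q (fx x)) := by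
    have h1 := nondeg_perp hQ (nondeg_cm hQ hx.iso hx.ne0 hx.pow)
    rwa [perp_cm hQ hx.iso hx.ne0 hx.pow] at h1
  have hcmP : ¬ IsPlus (res Q (cm x)) := by
    rw [isPlus_cm_iff hx.two_lt hQ hx.iso hx.ne0 hx.pow (ord_eq hr) (by decide) (A := 1) (by omega)]
    decide
  have hfP : ¬ IsPlus (res Q (fx x)) := by
    intro h
    have h1 := (hx.isPlus_fx hQ (by rw [hV]; decide) (by rw [hcm]; decide)).1 hP
    exact hcmP (h1.2 h)
  obtain ⟨e, he⟩ := exists_minus_equiv hab 1 (res Q (fx x)) hfn (by omega) hfP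
  have hinv : ∀ g, ∀ v ∈ fx x, ρ g v ∈ fx x := by
    intro g v hv
    rw [H951.mem_fx] at hv ⊢
    rw [← hcomm, hv]
  -- the representation on the fixed space
  let ρ0 : G →* Module.End F (fx x) :=
    { toFun := fun g => (ρ g).restrict (hinv g)
      map_one' := by
        ext v
        exact hone v
      map_mul' := fun g h => by
        ext v
        exact hmul g h v }
  have hρ0 : ∀ g (v : fx x), ((ρ0 g v : fx x) : V) = ρ g v := fun g v => rfl
  let σ : G →* Module.End F ((Fin 1 ⊕ Fin 1) ⊕ Fin 2 → F) := (e.conjAlgEquiv F).toMonoidHom.comp ρ0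
  have hσ : ∀ g v, σ g v = e (ρ0 g (e.symm v)) := fun g v => rfl
  let τ : G →* GL ((Fin 1 ⊕ Fin 1) ⊕ Fin 2) F :=
    (Matrix.GeneralLinearGroup.toLin (n := ((Fin 1 ⊕ Fin 1) ⊕ Fin 2)) (R := F)).symm.toMonoidHom.comp σ.toHomUnits
  have hτ : ∀ g v, (τ g : Matrix _ _ F) *ᵥ v = σ g v := by
    intro g v
    have h1 : Matrix.GeneralLinearGroup.toLin (τ g) = σ.toHomUnits g :=
      (Matrix.GeneralLinearGroup.toLin (n := ((Fin 1 ⊕ Fin 1) ⊕ Fin 2)) (R := F)).apply_symm_apply _
    have h2 := congrArg (fun z : LinearMap.GeneralLinearGroup F ((Fin 1 ⊕ Fin 1) ⊕ Fin 2 → F) =>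
      (z : Module.End F ((Fin 1 ⊕ Fin 1) ⊕ Fin 2 → F)) v) h1
    exact h2
  have hτm : ∀ g, τ g ∈ Cfsg.isometryGroup F (Cfsg.quadFormMinus 1 F a b) := by
    intro g
    rw [H925.mem_iso_iff]
    intro v
    have h1 : ∀ w, Cfsg.quadFormMinus 1 F a b w = LieClassical.QuadForms.minusForm 1 F a b w := fun w => by
      rw [LieClassical.QuadForms.coe_minusForm]
    rw [hτ, hσ, h1, h1, he, res_apply, hρ0, hiso]
    have h2 := he (e.symm v)
    rw [LinearEquiv.apply_symm_apply] at h2
    rw [h2, res_apply]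
  let τ1 : G →* Cfsg.isometryGroup F (Cfsg.quadFormMinus 1 F a b) := τ.codRestrict _ hτm
  have hτ1 : Function.Injective τ1 := by
    rw [injective_iff_map_eq_one]
    intro g hg
    apply hρ
    rw [map_one]
    apply LinearMap.ext
    intro v
    show ρ g v = v
    have h1 : τ g = 1 := congrArg Subtype.val hg
    have h2 : ∀ w : fx x, ρ g w = w := by
      intro w
      have h3 := hτ g (e w)
      rw [h1, hσ, LinearEquiv.symm_apply_apply, Units.val_one, Matrix.one_mulVec] at h3
      have h4 := e.injective h3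
      rw [← hρ0, ← h4]
    have h5 : v ∈ fx x ⊔ cm x := by
      rw [(H951.isCompl_fx_cm hx.ne0 hx.pow).sup_eq_top]
      trivial
    obtain ⟨v1, hv1, v2, hv2, rfl⟩ := Submodule.mem_sup.1 h5
    rw [map_add, htriv g v2 hv2, h2 ⟨v1, hv1⟩]
  have hτ2 : ∀ g, τ1 g ∈ Cfsg.Omega F (Cfsg.quadFormMinus 1 F a b) := by
    intro g
    have h1 : g ∈ commutator G := hG ▸ Subgroup.mem_top g
    have h2 : (commutator G).map τ1 ≤ commutator (Cfsg.isometryGroup F (Cfsg.quadFormMinus 1 F a b)) := by
      rw [commutator_def, Subgroup.map_commutator, commutator_def]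
      exact Subgroup.commutator_mono le_top le_top
    exact h2 ⟨g, h1, rfl⟩
  exact ⟨τ1.codRestrict _ hτ2, fun g h hgh => hτ1 (congrArg Subtype.val hgh)⟩

end Cfsg.Agent.H953.O8
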