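import Cfsg.Agent.H953.Cyc.O8c
import Cfsg.Agent.H948.OnCyc
import Cfsg.Agent.H899.Cyc.Fac
import Cfsg.Agent.H235.ExtOut
import Cfsg.Agent.H427.TWComp

/-!
# `PΩ₈⁺(q)`: subgroups commuting with an element of order `r`, `ord_r(q) = 4` (helper953, S3679)

* `pow_dvd_sq` : `H ≤ PΩ₈⁺(q)` perfect with trivial centre, commuting with `x ≠ 1`, `x ^ r = 1`: `|H|_p ∣ q ^ 2`;
* `elem_le` : elementary abelian `r`-subgroups have order at most `r ^ 2`;
* `fac_eq_two`, `fac_pow_dvd`, `fac_index` : in a factorization `T = A M`, `A ≅ S ^ l`, `r ∣ |S|`: `l = 2`,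
  `|S|_p ∣ q ^ 2` and `|T : M|_p ∣ q ^ 4`.
-/

set_option autoImplicit false
set_option linter.unusedSectionVars false

namespace Cfsg.Agent.H953.O8

open Subgroup Module Cfsg.Agent.LieClassical.OrthCore Cfsg.Agent.LieClassical.OrthTrans
  Cfsg.Agent.LieClassical.OrthSimple Cfsg.Agent.LieClassical.OrthFinite
  Cfsg.Agent.ClassicalGeometry.OrthSemiForms Cfsg.Agent.H884.El Cfsg.Agent.H899.CG
open Cfsg.Agent.H951 (fx cm Inv)
open scoped MatrixGroups Matrix

universe u

section basics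

variable (F : Type u) [Field F] [Fintype F]

/-- the linear action of `Ω₈⁺(q)` -/
noncomputable def rho : Cfsg.Omega F (Cfsg.quadFormPlus 4 F) →* Module.End F (Fin 4 ⊕ Fin 4 → F) :=
  (Matrix.toLinAlgEquiv' (R := F) (n := Fin 4 ⊕ Fin 4)).toAlgHom.toRingHom.toMonoidHom.comp
    ((Units.coeHom _).comp ((Cfsg.isometryGroup F (Cfsg.quadFormPlus 4 F)).subtype.comp
      (Cfsg.Omega F (Cfsg.quadFormPlus 4 F)).subtype))

variable {F}

theorem rho_apply (g : Cfsg.Omega F (Cfsg.quadFormPlus 4 F)) (v : Fin 4 ⊕ Fin 4 → F) :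
    rho F g v = ((g.1.1 : GL (Fin 4 ⊕ Fin 4) F) : Matrix _ _ F) *ᵥ v := rfl

theorem rho_injective : Function.Injective (rho F) := by
  intro g h hgh
  apply Subtype.ext
  apply Subtype.ext
  apply Units.ext
  exact (Matrix.toLinAlgEquiv' (R := F) (n := Fin 4 ⊕ Fin 4)).injective hgh

theorem rho_iso (g : Cfsg.Omega F (Cfsg.quadFormPlus 4 F)) (v : Fin 4 ⊕ Fin 4 → F) :
    LieClassical.QuadForms.plusForm 4 F (rho F g v) = LieClassical.QuadForms.plusForm 4 F v := by
  rw [rho_apply, LieClassical.QuadForms.coe_plusForm]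
  exact H925.mem_iso_iff.1 g.1.2 v

theorem finite_end : Finite (Module.End F (Fin 4 ⊕ Fin 4 → F)) :=
  Finite.of_injective (fun f => (f : (Fin 4 ⊕ Fin 4 → F) → (Fin 4 ⊕ Fin 4 → F))) DFunLike.coe_injective

theorem finite_omega : Finite (Cfsg.Omega F (Cfsg.quadFormPlus 4 F)) :=
  have := finite_end (F := F)
  Finite.of_injective _ (rho_injective (F := F))

theorem finite_pomega : Finite (Cfsg.POmega F (Cfsg.quadFormPlus 4 F)) :=
  have := finite_omega (F := F)
  Finite.of_surjective _ (QuotientGroup.mk'_surjective (center (Cfsg.Omega F (Cfsg.quadFormPlus 4 F))))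

variable (F) in
/-- the projection -/
def proj : Cfsg.Omega F (Cfsg.quadFormPlus 4 F) →* Cfsg.POmega F (Cfsg.quadFormPlus 4 F) :=
  QuotientGroup.mk' (center (Cfsg.Omega F (Cfsg.quadFormPlus 4 F)))

theorem proj_surjective : Function.Surjective (proj F) := QuotientGroup.mk'_surjective _

theorem proj_ker : ∀ z ∈ (proj F).ker, z * z = 1 ∧ ∀ g, g * z = z * g := by
  have hG : Good (LieClassical.OrthForms.plusForm 4 F) := good_plus (by norm_num)
  intro z hz
  have hz' : z ∈ center (Cfsg.Omega F (Cfsg.quadFormPlus 4 F)) := by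
    rwa [proj, QuotientGroup.ker_mk'] at hz
  refine ⟨?_, fun g => mem_center_iff.1 hz' g⟩
  clear hz
  revert z
  rw [← LieClassical.OrthForms.coe_plusForm]
  intro z hz
  exact H948.OnCyc.center_omega_sq hG hz

end basics

variable {F : Type u} [Field F] [Fintype F] {p r : ℕ}

/-- the order of `PΩ₄⁻(q)` -/
theorem dvd_minus [hp : Fact p.Prime] {n : ℕ} (hn : Fintype.card F = p ^ n) {a b : F}
    (hab : ∀ z₁ z₂ : F, z₁ ^ 2 + a * z₁ * z₂ + b * z₂ ^ 2 = 0 → z₁ = 0 ∧ z₂ = 0) {k : ℕ}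
    (hk : p ^ k ∣ Nat.card (Cfsg.POmega F (Cfsg.quadFormMinus 1 F a b))) : p ^ k ∣ Fintype.card F ^ 2 := by
  classical
  have hn0 : n ≠ 0 := by
    rintro rfl
    have := Fintype.one_lt_card (α := F)
    rw [hn, pow_zero] at this
    omega
  let K := GaloisField p (2 * n)
  have hKfin : Finite K := Nat.finite_of_card_ne_zero (by
    rw [GaloisField.card p (2 * n) (by omega)]
    exact pow_ne_zero _ hp.out.ne_zero)
  let _ : Fintype K := Fintype.ofFinite K
  have hK : Fintype.card K = (Fintype.card F) ^ 2 := by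
    rw [← Nat.card_eq_fintype_card, GaloisField.card p (2 * n) (by omega), hn, ← pow_mul, mul_comm]
  obtain ⟨e⟩ := S0300.result rfl hK a b hab
  rw [Nat.card_congr e.toEquiv] at hk
  have h1 : Nat.card (Matrix.ProjectiveSpecialLinearGroup (Fin 2) K) ∣
      Nat.card (Matrix.SpecialLinearGroup (Fin 2) K) :=
    Subgroup.card_quotient_dvd_card _
  have h2 : Nat.card (Matrix.SpecialLinearGroup (Fin 2) K) ∣ Nat.card (Matrix.GeneralLinearGroup (Fin 2) K) :=
    Subgroup.card_dvd_of_injective Matrix.SpecialLinearGroup.toGL Matrix.SpecialLinearGroup.toGL_injective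
  have h3 := hk.trans (h1.trans h2)
  rw [Matrix.card_GL_field, Fin.prod_univ_two, hK] at h3
  have hq : 1 < Fintype.card F := Fintype.one_lt_card
  obtain ⟨Q, hQ⟩ : ∃ Q, Q = Fintype.card F ^ 2 := ⟨_, rfl⟩
  rw [← hQ] at h3 ⊢
  have hQ1 : 1 < Q := by rw [hQ]; exact Nat.one_lt_pow (by norm_num) hq
  have hpQ : p ∣ Q := by rw [hQ, hn, ← pow_mul]; exact dvd_pow_self _ (by omega)
  have h4 : (Q ^ 2 - Q ^ ((0 : Fin 2) : ℕ)) * (Q ^ 2 - Q ^ ((1 : Fin 2) : ℕ)) = ((Q ^ 2 - 1) * (Q - 1)) * Q := by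
    have h5 : Q ^ 2 - Q ^ ((1 : Fin 2) : ℕ) = (Q - 1) * Q := by
      rw [Nat.sub_mul, one_mul, ← pow_two]
      simp
    rw [h5]
    simp only [Fin.val_zero, pow_zero]
    ring
  rw [h4] at h3
  have hc1 : Nat.Coprime p (Q ^ 2 - 1) := by
    rw [Nat.Prime.coprime_iff_not_dvd hp.out]
    intro h
    have h6 : p ∣ Q ^ 2 := hpQ.trans (dvd_pow_self _ (by norm_num))
    have h7 : p ∣ Q ^ 2 - (Q ^ 2 - 1) := Nat.dvd_sub h6 h
    have h8 : 1 ≤ Q ^ 2 := Nat.one_le_pow _ _ (by omega)
    rw [Nat.sub_sub_self h8] at h7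
    exact hp.out.one_lt.ne' (Nat.dvd_one.1 h7)
  have hc2 : Nat.Coprime p (Q - 1) := by
    rw [Nat.Prime.coprime_iff_not_dvd hp.out]
    intro h
    have h7 : p ∣ Q - (Q - 1) := Nat.dvd_sub hpQ h
    rw [Nat.sub_sub_self (by omega)] at h7
    exact hp.out.one_lt.ne' (Nat.dvd_one.1 h7)
  exact (Nat.Coprime.pow_left k (hc1.mul_right hc2)).dvd_of_dvd_mul_left h3

/-- **the `p`-part of a perfect centreless subgroup commuting with an element of order `r`** -/
theorem pow_dvd_sq [hp : Fact p.Prime] [CharP F p] (hr : PP (Nat.card F) 4 r)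
    {H : Subgroup (Cfsg.POmega F (Cfsg.quadFormPlus 4 F))} (hH : ⁅H, H⁆ = H)
    (hc : ∀ z ∈ H, (∀ h ∈ H, h * z = z * h) → z = 1) {x : Cfsg.POmega F (Cfsg.quadFormPlus 4 F)} (hx : x ^ r = 1)
    (hx1 : x ≠ 1) (hcomm : ∀ h ∈ H, h * x = x * h) {k : ℕ} (hk : p ^ k ∣ Nat.card H) :
    p ^ k ∣ Nat.card F ^ 2 := by
  classical
  have hfE := finite_end (F := F)
  have hfO := finite_omega (F := F)
  have hfP := finite_pomega (F := F)
  have hrodd : Odd r := hr.odd (by norm_num)
  obtain ⟨y, hyx, hyr, hy⟩ := lift_elt (proj F) proj_surjective proj_ker hrodd hx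
  obtain ⟨K, hK, hKH⟩ := exists_perfect_lift (proj F) proj_surjective hH
  have hπK : ∀ g ∈ K, proj F g ∈ H := fun g hg => hKH ▸ ⟨g, hg, rfl⟩
  have hKy : ∀ g ∈ K, g * y = y * g := fun g hg => hy g (hcomm _ (hπK g hg))
  have hy1 : y ≠ 1 := by
    rintro rfl
    exact hx1 (by rw [← hyx, map_one])
  -- the data
  have hIso : Iso (LieClassical.QuadForms.plusForm 4 F) (rho F y) r :=
    Iso.mk' hr (by norm_num) (by rw [← map_pow, hyr, map_one]) (rho_iso y)
  have hQ : Nondeg (LieClassical.QuadForms.plusForm 4 F) := H955.nondeg_plus 4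
  have hP : H955.IsPlus (LieClassical.QuadForms.plusForm 4 F) := H955.isPlus_plus 4
  have hV : finrank F (Fin 4 ⊕ Fin 4 → F) = 8 := H955.finrank_plus 4
  have hρy : rho F y ≠ 1 := fun h => hy1 (rho_injective (by rw [h, map_one]))
  let ρ : K →* Module.End F (Fin 4 ⊕ Fin 4 → F) := (rho F).comp K.subtype
  have hρ : Function.Injective ρ := rho_injective.comp K.subtype_injective
  have hρiso : ∀ g v, LieClassical.QuadForms.plusForm 4 F (ρ g v) = LieClassical.QuadForms.plusForm 4 F v :=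
    fun g v => rho_iso g.1 v
  have hρc : ∀ g v, ρ g (rho F y v) = rho F y (ρ g v) := by
    intro g v
    show (rho F g.1 * rho F y) v = (rho F y * rho F g.1) v
    rw [← map_mul, ← map_mul, hKy g.1 g.2]
  have hdvd := hIso.dvd_cm hr
  have hc0 : finrank F (cm (rho F y)) ≠ 0 := fun h => cm_ne_bot hρy (Submodule.finrank_eq_zero.1 h)
  have hle : finrank F (cm (rho F y)) ≤ 8 := hV ▸ Submodule.finrank_le _
  obtain ⟨n, -, hn⟩ := FiniteField.card F p
  have hkK : p ^ k ∣ Nat.card K := by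
    have h1 := Subgroup.card_map_dvd K (proj F)
    rw [hKH] at h1
    exact hk.trans h1
  have h48 : finrank F (cm (rho F y)) = 4 ∨ finrank F (cm (rho F y)) = 8 := by omega
  rcases h48 with h4 | h8
  · -- the commutator space has dimension 4
    have hKt : commutator K = ⊤ := by
      apply Subgroup.map_injective K.subtype_injective
      rw [commutator_def, Subgroup.map_commutator, ← MonoidHom.range_eq_map, Subgroup.range_subtype, hK]
    obtain ⟨a, b, hab, φ, hφ⟩ := exists_minus_hom hIso hr hQ hV hP h4 hKt ρ hρ hρiso hρc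
    let ψ : K →* Cfsg.POmega F (Cfsg.quadFormMinus 1 F a b) :=
      (QuotientGroup.mk' (center (Cfsg.Omega F (Cfsg.quadFormMinus 1 F a b)))).comp φ
    have h1 : ψ.ker ≤ ((proj F).comp K.subtype).ker := by
      intro z hz
      have h2 : φ z ∈ center (Cfsg.Omega F (Cfsg.quadFormMinus 1 F a b)) :=
        (QuotientGroup.eq_one_iff _).1 hz
      have h3 : ∀ g, g * z = z * g := by
        intro g
        apply hφ
        rw [map_mul, map_mul]
        exact mem_center_iff.1 h2 (φ g)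
      rw [MonoidHom.mem_ker]
      apply hc _ (hπK z z.2)
      intro h hh
      rw [← hKH] at hh
      obtain ⟨g, hg, rfl⟩ := hh
      show proj F g * proj F z = proj F z * proj F g
      rw [← map_mul, ← map_mul]
      exact congrArg (proj F) (congrArg Subtype.val (h3 ⟨g, hg⟩))
    have h2 : Nat.card H ∣ Nat.card (Cfsg.POmega F (Cfsg.quadFormMinus 1 F a b)) := by
      have h3 : Nat.card H = ((proj F).comp K.subtype).ker.index := by
        rw [Subgroup.index_ker, MonoidHom.range_comp, Subgroup.range_subtype, hKH]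
      rw [h3]
      refine (Subgroup.index_dvd_of_le h1).trans ?_
      rw [Subgroup.index_ker]
      exact Subgroup.card_subgroup_dvd_card _
    rw [Nat.card_eq_fintype_card]
    exact dvd_minus hn hab (hk.trans h2)
  · -- the commutator space is everything
    have hcm : cm (rho F y) = ⊤ := Submodule.eq_top_of_finrank_eq (by rw [h8, hV])
    obtain ⟨P⟩ : Nonempty (Sylow p K) := inferInstance
    have h1 : Nat.card P ≤ Nat.card F ^ 2 :=
      card_le_sq hIso hr hQ hV hcm P.isPGroup' (ρ.comp (P : Subgroup K).subtype)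
        (hρ.comp (P : Subgroup K).subtype_injective) (fun g v => hρiso g.1 v) (fun g v => hρc g.1 v)
    have h2 := P.pow_dvd_card_of_pow_dvd_card hkK
    have h3 := (Nat.le_of_dvd Nat.card_pos h2).trans h1
    rw [Nat.card_eq_fintype_card, hn, ← pow_mul] at h3 ⊢
    exact pow_dvd_pow p ((Nat.pow_le_pow_iff_right hp.out.one_lt).1 h3)

/-- **elementary abelian `r`-subgroups** -/
theorem elem_le (hr : PP (Nat.card F) 4 r) {A : Type*} [Group A] [Finite A] (hcomm : ∀ a b : A, a * b = b * a)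
    (hexp : ∀ a : A, a ^ r = 1) (ψ : A →* Cfsg.POmega F (Cfsg.quadFormPlus 4 F)) (hψ : Function.Injective ψ) :
    Nat.card A ≤ r ^ 2 := by
  have hfO := finite_omega (F := F)
  have hr2 : r ≠ 2 := by
    have := hr.lt (by norm_num)
    omega
  have hP : IsPGroup r ψ.range := by
    rintro ⟨_, a, rfl⟩
    refine ⟨1, Subtype.ext ?_⟩
    show ψ a ^ r ^ 1 = 1
    rw [pow_one, ← map_pow, hexp, map_one]
  obtain ⟨P', hP', hle, hinj, hcard⟩ := exists_lift_pgroup (proj F) proj_surjective (fun z hz => (proj_ker z hz).1)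
    hr.prime hr2 hP
  have h1 : Nat.card A = Nat.card P' := by
    rw [hcard]
    exact Nat.card_congr (ψ.ofInjective hψ).toEquiv
  rw [h1]
  have hinj2 : ∀ a ∈ P', ∀ b ∈ P', proj F a = proj F b → a = b := by
    intro a ha b hb hab
    have := hinj (a * b⁻¹) (P'.mul_mem ha (P'.inv_mem hb)) (by rw [map_mul, map_inv, hab, mul_inv_cancel])
    exact mul_inv_eq_one.1 this
  refine card_le_of_elem hr (H955.finrank_plus 4) ?_ ?_ ((rho F).comp P'.subtype)
    (rho_injective.comp P'.subtype_injective)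
  · rintro ⟨a, ha⟩ ⟨b, hb⟩
    apply Subtype.ext
    apply hinj2 _ (P'.mul_mem ha hb) _ (P'.mul_mem hb ha)
    obtain ⟨c, hc⟩ := hle a ha
    obtain ⟨d, hd⟩ := hle b hb
    rw [map_mul, map_mul, ← hc, ← hd, ← map_mul, ← map_mul, hcomm]
  · rintro ⟨a, ha⟩
    apply Subtype.ext
    apply hinj2 _ (P'.pow_mem ha r) _ P'.one_mem
    obtain ⟨c, hc⟩ := hle a ha
    rw [map_pow, map_one, ← hc, ← map_pow, hexp, map_one]

section fac

variable {S : Type*} [Group S] [Finite S] {A M : Subgroup (Cfsg.POmega F (Cfsg.quadFormPlus 4 F))} {l : ℕ}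

/-- **the `p`-part of `|S|`, two commuting copies of `S`** -/
theorem pow_dvd_of_hom [hp : Fact p.Prime] [CharP F p] (hr : PP (Nat.card F) 4 r) (hS : IsSimpleGroup S)
    (hna : ¬ IsMulCommutative S) (φ : S × S →* Cfsg.POmega F (Cfsg.quadFormPlus 4 F)) (hφ : Function.Injective φ)
    (hrS : r ∣ Nat.card S) {k : ℕ} (hk : p ^ k ∣ Nat.card S) : p ^ k ∣ Nat.card F ^ 2 := by
  have := Fact.mk hr.prime
  obtain ⟨s, hs⟩ := exists_prime_orderOf_dvd_card' r hrS
  have hinl : Function.Injective (φ.comp (MonoidHom.inl S S)) := fun a b hab => congrArg Prod.fst (hφ hab)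
  have hperf : commutator S = ⊤ := H235.ExtOut.commutator_eq_top hna
  have hcen : center S = ⊥ := H427.center_eq_bot_of_simple hS hna
  refine pow_dvd_sq hr (H := (φ.comp (MonoidHom.inl S S)).range) (x := φ (1, s)) ?_ ?_ ?_ ?_ ?_ (k := k) ?_
  · rw [MonoidHom.range_eq_map, ← Subgroup.map_commutator, ← commutator_def, hperf]
  · rintro _ ⟨z, rfl⟩ hz
    have h1 : z ∈ center S := by
      rw [mem_center_iff]
      intro g
      apply hinl
      rw [map_mul, map_mul]
      exact hz _ ⟨g, rfl⟩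
    rw [hcen, mem_bot] at h1
    rw [h1, map_one]
  · have h1 : ((1 : S), s) ^ r = 1 := by
      rw [Prod.pow_mk, one_pow, ← hs, pow_orderOf_eq_one]
      rfl
    rw [← map_pow, h1, map_one]
  · intro h
    have h1 : ((1 : S), s) = 1 := hφ (by rw [h, map_one])
    have h2 : s = 1 := congrArg Prod.snd h1
    rw [h2, orderOf_one] at hs
    exact hr.prime.one_lt.ne hs
  · rintro _ ⟨g, rfl⟩
    show φ (g, 1) * φ (1, s) = φ (1, s) * φ (g, 1)
    rw [← map_mul, ← map_mul, Prod.mk_mul_mk, Prod.mk_mul_mk, one_mul, mul_one, one_mul, mul_one]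
  · rwa [← Nat.card_congr ((φ.comp (MonoidHom.inl S S)).ofInjective hinl).toEquiv]

/-- `S ^ l ≤ T`, `r ∣ |S|`: `l ≤ 2` -/
theorem le_two_of_hom (hr : PP (Nat.card F) 4 r) (φ : (Fin l → S) →* Cfsg.POmega F (Cfsg.quadFormPlus 4 F))
    (hφ : Function.Injective φ) (hrS : r ∣ Nat.card S) : l ≤ 2 := by
  have := Fact.mk hr.prime
  obtain ⟨s, hs⟩ := exists_prime_orderOf_dvd_card' r hrS
  let ι : (Fin l → Subgroup.zpowers s) →* (Fin l → S) :=
    { toFun := fun f i => (f i : S)
      map_one' := rfl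
      map_mul' := fun _ _ => rfl }
  have hι : Function.Injective ι := by
    intro f g hfg
    funext i
    exact Subtype.ext (congrFun hfg i)
  have h1 := elem_le hr (A := Fin l → Subgroup.zpowers s)
    (fun a b => by
      funext i
      apply Subtype.ext
      obtain ⟨j, hj⟩ := (a i).2
      obtain ⟨j', hj'⟩ := (b i).2
      have h1 : s ^ j = ((a i : Subgroup.zpowers s) : S) := hj
      have h2 : s ^ j' = ((b i : Subgroup.zpowers s) : S) := hj'
      show ((a i : Subgroup.zpowers s) : S) * ((b i : Subgroup.zpowers s) : S) =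
        ((b i : Subgroup.zpowers s) : S) * ((a i : Subgroup.zpowers s) : S)
      rw [← h1, ← h2, ← zpow_add, ← zpow_add, add_comm])
    (fun a => by
      funext i
      apply Subtype.ext
      obtain ⟨j, hj⟩ := (a i).2
      have hj' : s ^ j = ((a i : Subgroup.zpowers s) : S) := hj
      show ((a i : Subgroup.zpowers s) : S) ^ r = 1
      rw [← hj', ← zpow_natCast, zpow_comm, zpow_natCast, ← hs, pow_orderOf_eq_one, one_zpow]) (φ.comp ι) (hφ.comp hι)
  rw [Nat.card_pi] at h1
  simp only [Finset.prod_const, Finset.card_univ, Fintype.card_fin, Nat.card_zpowers, hs] at h1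
  exact (Nat.pow_le_pow_iff_right hr.prime.one_lt).1 h1

theorem fac_eq_two (hr : PP (Nat.card F) 4 r) (h : Fac (Cfsg.POmega F (Cfsg.quadFormPlus 4 F)) A M S l)
    (hrS : r ∣ Nat.card S) : l = 2 := by
  obtain ⟨e⟩ := h.iso
  exact le_antisymm (le_two_of_hom hr (A.subtype.comp e.symm.toMonoidHom)
    (A.subtype_injective.comp e.symm.injective) hrS) h.two_le

theorem fac_pow_dvd [hp : Fact p.Prime] [CharP F p] (hr : PP (Nat.card F) 4 r) (hS : IsSimpleGroup S)
    (hna : ¬ IsMulCommutative S) (h : Fac (Cfsg.POmega F (Cfsg.quadFormPlus 4 F)) A M S l) (hrS : r ∣ Nat.card S)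
    {k : ℕ} (hk : p ^ k ∣ Nat.card S) : p ^ k ∣ Nat.card F ^ 2 := by
  obtain ⟨φ, hφ, -⟩ := h.exists_hom
  exact pow_dvd_of_hom hr hS hna φ hφ hrS hk

/-- **the `p`-part of the index** -/
theorem fac_index [hp : Fact p.Prime] [CharP F p] (hr : PP (Nat.card F) 4 r) (hS : IsSimpleGroup S)
    (hna : ¬ IsMulCommutative S) (h : Fac (Cfsg.POmega F (Cfsg.quadFormPlus 4 F)) A M S l) (hrS : r ∣ Nat.card S)
    {k : ℕ} (hk : p ^ k ∣ M.index) : p ^ k ∣ Nat.card F ^ 4 := by
  have h1 := hk.trans h.index_dvd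
  rw [fac_eq_two hr h hrS] at h1
  have hS0 : Nat.card S ≠ 0 := Nat.card_pos.ne'
  have h2 : k ≤ 2 * (Nat.card S).factorization p := by
    have h3 := (hp.out.pow_dvd_iff_le_factorization (pow_ne_zero 2 hS0)).1 h1
    rwa [Nat.factorization_pow] at h3
  have h4 := fac_pow_dvd hr hS hna h hrS (Nat.ordProj_dvd (Nat.card S) p)
  have h5 := pow_dvd_pow_of_dvd h4 2
  rw [← pow_mul, ← pow_mul] at h5
  exact (pow_dvd_pow p (by omega)).trans h5

/-- the index version: `r ∣ |T : M|` suffices -/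
theorem fac_index' [hp : Fact p.Prime] [CharP F p] (hr : PP (Nat.card F) 4 r) (hS : IsSimpleGroup S)
    (hna : ¬ IsMulCommutative S) (h : Fac (Cfsg.POmega F (Cfsg.quadFormPlus 4 F)) A M S l) (hrM : r ∣ M.index)
    {k : ℕ} (hk : p ^ k ∣ M.index) : p ^ k ∣ Nat.card F ^ 4 :=
  fac_index hr hS hna h (hr.prime.dvd_of_dvd_pow (hrM.trans h.index_dvd)) hk

end fac

end Cfsg.Agent.H953.O8
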