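import Cfsg.Agent.H953.Cyc.O8d
import Cfsg.Agent.H175.OmegaAdjust
import Cfsg.Agent.H501.RowOmega
import Cfsg.Agent.S0750
import Cfsg.Agent.H899.Pt.Grp

/-!
# Conjugacy of elements of order `r`, `ord_r(q) = 4`, in `Ω₈⁺(q)` (helper953, S3679)

* `adjust` : `O = Ω K` if `K` contains the reflections of a nondegenerate subspace of dimension at least 2;
* `conj_type0` : two subgroups of order `r` with a 4-dimensional commutator space are conjugate in `Ω`.
-/

set_option autoImplicit false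
set_option linter.unusedSectionVars false

namespace Cfsg.Agent.H953.O8

open Subgroup Module QuadraticMap Cfsg.Agent.LieClassical.OrthCore Cfsg.Agent.H955 Cfsg.Agent.H954.TSing
  Cfsg.Agent.H884.El Cfsg.Agent.H899.Pt
open Cfsg.Agent.ClassicalGeometry.Reflection Cfsg.Agent.H175.OmegaAdjust
open Cfsg.Agent.H501.RowOmega (mt mt_mul mt_one mt_inj isom_polar)
open Cfsg.Agent.H951 (fx cm Inv)
open scoped MatrixGroups Matrix

universe u

variable {F : Type u} [Field F] [Fintype F] {ι : Type} [Fintype ι] [DecidableEq ι] {Q : QuadraticForm F (ι → F)}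
  {r n : ℕ}

theorem rd_of_pp (hr : PP (Nat.card F) n r) (hn : 2 ≤ n) : RD F r n :=
  ⟨hr.prime, by have := hr.lt (by omega); omega, PP.ne0 hr (by omega), ord_eq hr⟩

/-- covering `O / Ω` by the isometries trivial on the perp of a nondegenerate subspace -/
theorem adjust (hQ : Nondeg Q) (hι : 4 < Fintype.card ι) {W : Submodule F (ι → F)} (hW : Nondeg (res Q W))
    (hW2 : 2 ≤ finrank F W) {K : Subgroup (Cfsg.isometryGroup F ⇑Q)}
    (hK : ∀ v ∈ W, ∀ hv : Q v ≠ 0, reflIso Q v hv ∈ K) (g : Cfsg.isometryGroup F ⇑Q) :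
    ∃ s ∈ K, g * s ∈ Cfsg.Omega F ⇑Q := by
  have hQ' := nondegenerate_of_nondeg hQ
  have hWn : ∀ w ∈ W, (∀ y ∈ W, polar ⇑Q w y = 0) → w = 0 := by
    intro w hw h
    exact (nondeg_res_iff.1 hW) w hw h
  by_cases h2 : (2 : F) = 0
  · obtain ⟨v, hv, hv1⟩ : ∃ v ∈ W, Q v ≠ 0 := by
      by_contra hcon
      push Not at hcon
      have hW0 : W = ⊥ := by
        rw [Submodule.eq_bot_iff]
        intro w hw
        refine hWn w hw fun y hy => ?_
        rw [polar, hcon _ (W.add_mem hw hy), hcon _ hw, hcon _ hy, sub_zero, sub_zero]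
      rw [hW0, finrank_bot] at hW2
      omega
    exact adjust_two Q h2 hQ' (Or.inr (by omega)) K v hv1 (hK v hv _) g
  · obtain ⟨c, hc⟩ := FiniteField.exists_nonsquare (F := F) (by
      intro h
      have : CharP F 2 := ringChar.of_eq h
      exact h2 (CharP.cast_eq_zero F 2))
    have hc0 : c ≠ 0 := by
      rintro rfl
      exact hc (IsSquare.zero)
    obtain ⟨v, hv, hv1⟩ := exists_value h2 Q W hW2 hWn 1
    obtain ⟨w, hw, hw1⟩ := exists_value h2 Q W hW2 hWn c
    have hv0 : Q v ≠ 0 := by rw [hv1]; exact one_ne_zero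
    have hw0 : Q w ≠ 0 := by rw [hw1]; exact hc0
    exact adjust_odd_refl Q h2 hQ' (by omega) K v w hv0 hw0 (by rw [hv1, hw1, one_mul]; exact hc)
      (hK v hv hv0) (hK w hw hw0) g

/-- the natural representation of the isometry group -/
noncomputable abbrev R (Q : QuadraticForm F (ι → F)) : Cfsg.isometryGroup F ⇑Q →* Module.End F (ι → F) :=
  Cfsg.Agent.H501.RowOmega.rho ⇑Q

theorem R_injective : Function.Injective (R Q) := Cfsg.Agent.H501.RowOmega.rho_injective _

omit [Fintype F] in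
theorem mt_apply (g : Cfsg.isometryGroup F ⇑Q) (v : ι → F) : Q (mt g *ᵥ v) = Q v :=
  H925.mem_iso_iff.1 g.2 v

theorem R_iso (g : Cfsg.isometryGroup F ⇑Q) (v : ι → F) : Q (R Q g v) = Q v := by
  rw [H501.RowOmega.rho_apply]
  exact mt_apply g v

theorem R_mul (g h : Cfsg.isometryGroup F ⇑Q) (v : ι → F) : R Q (g * h) v = R Q g (R Q h v) := by
  rw [map_mul]; rfl

theorem R_one (v : ι → F) : R Q 1 v = v := by
  rw [map_one]; rfl

theorem R_inv_apply (g : Cfsg.isometryGroup F ⇑Q) (v : ι → F) : R Q g⁻¹ (R Q g v) = v := by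
  rw [← R_mul, inv_mul_cancel, R_one]

theorem R_apply_inv (g : Cfsg.isometryGroup F ⇑Q) (v : ι → F) : R Q g (R Q g⁻¹ v) = v := by
  rw [← R_mul, mul_inv_cancel, R_one]

theorem R_polar (g : Cfsg.isometryGroup F ⇑Q) (u v : ι → F) : polar ⇑Q (R Q g u) (R Q g v) = polar ⇑Q u v :=
  polar_isom (R_iso g) u v

theorem R_pow {g : Cfsg.isometryGroup F ⇑Q} (hg : g ^ r = 1) : (R Q g) ^ r = 1 := by
  rw [← map_pow, hg, map_one]

theorem R_ne_one {g : Cfsg.isometryGroup F ⇑Q} (hg : g ≠ 1) : R Q g ≠ 1 := fun h =>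
  hg (R_injective (by rw [h, map_one]))

theorem finite_iso : Finite (Cfsg.isometryGroup F ⇑Q) := inferInstance

/-- reflections of vectors fixed by `x` commute with `x` -/
theorem refl_comm {x : Cfsg.isometryGroup F ⇑Q} {v : ι → F} (hv : v ∈ fx (R Q x)) (hv0 : Q v ≠ 0) :
    reflIso Q v hv0 ∈ centralizer {x} := by
  rw [Subgroup.mem_centralizer_singleton_iff]
  apply mt_inj
  rw [mt_mul, mt_mul]
  apply Matrix.ext_of_mulVec_single
  intro j
  have h2 : mt x *ᵥ v = v := by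
    have := H951.mem_fx.1 hv
    rwa [H501.RowOmega.rho_apply] at this
  have hr : ∀ y, mt (reflIso Q v hv0) *ᵥ y = y - ((Q v)⁻¹ * polar ⇑Q v y) • v := by
    intro y
    change ((reflIso Q v hv0 : Matrix.GeneralLinearGroup ι F) : Matrix ι ι F) *ᵥ y = _
    rw [coe_reflIso, reflectionMatrix_mulVec]
  rw [← Matrix.mulVec_mulVec, ← Matrix.mulVec_mulVec, hr, hr, Matrix.mulVec_sub, Matrix.mulVec_smul, h2]
  have h3 : polar ⇑Q v (mt x *ᵥ Pi.single j 1) = polar ⇑Q v (Pi.single j 1) := by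
    conv_lhs => rw [← h2]
    rw [isom_polar]
  rw [h3]

/-- the isometries trivial on `U` -/
def triv (Q : QuadraticForm F (ι → F)) (U : Submodule F (ι → F)) : Subgroup (Cfsg.isometryGroup F ⇑Q) where
  carrier := {h | ∀ v ∈ U, R Q h v = v}
  one_mem' := fun v _ => R_one v
  mul_mem' := fun {a b} ha hb v hv => by rw [R_mul, hb v hv, ha v hv]
  inv_mem' := fun {a} ha v hv => by
    conv_lhs => rw [← ha v hv]
    exact R_inv_apply a v

theorem mem_triv {U : Submodule F (ι → F)} {h : Cfsg.isometryGroup F ⇑Q} :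
    h ∈ triv Q U ↔ ∀ v ∈ U, R Q h v = v := Iff.rfl

/-- isometries trivial on `U` preserve the perp -/
theorem inv_perp {U : Submodule F (ι → F)} {h : Cfsg.isometryGroup F ⇑Q} (hh : h ∈ triv Q U) :
    Inv (R Q h) (perp Q U) := by
  intro z hz
  rw [mem_perp] at hz ⊢
  intro u hu
  rw [← hh u hu, R_polar]
  exact hz u hu

/-- no `C_r × C_r` in the isometry group of a space of dimension `n` -/
theorem noSq_triv (hr : RD F r n) {x : Cfsg.isometryGroup F ⇑Q} (hQ : Nondeg Q) (hx : x ^ r = 1)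
    (hc : finrank F (cm (R Q x)) = n) : NoSq (triv Q (fx (R Q x))) r := by
  intro a ha b hb hao hbo hab
  have hZ : cm (R Q x) = perp Q (fx (R Q x)) := by
    rw [← perp_cm hQ (R_iso x) hr.ne0 (R_pow hx), perp_perp hQ]
  have har : a ^ r = 1 := by rw [← hao, pow_orderOf_eq_one]
  have hbr : b ^ r = 1 := by rw [← hbo, pow_orderOf_eq_one]
  have hIa : Inv (R Q a) (cm (R Q x)) := by rw [hZ]; exact inv_perp ha
  have hIb : Inv (R Q b) (cm (R Q x)) := by rw [hZ]; exact inv_perp hb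
  have hall : ∀ g : Cfsg.isometryGroup F ⇑Q, g ∈ triv Q (fx (R Q x)) → cm (R Q x) ≤ fx (R Q g) → g = 1 := by
    intro g hg h
    apply R_injective
    rw [map_one]
    apply LinearMap.ext
    intro v
    have h5 : v ∈ fx (R Q x) ⊔ cm (R Q x) := by
      rw [(H951.isCompl_fx_cm hr.ne0 (R_pow hx)).sup_eq_top]
      trivial
    obtain ⟨v1, hv1, v2, hv2, rfl⟩ := Submodule.mem_sup.1 h5
    rw [map_add, hg v1 hv1, H951.mem_fx.1 (h hv2)]
    rfl
  have ha1 : a ≠ 1 := by
    rintro rfl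
    rw [orderOf_one] at hao
    exact hr.prime.one_lt.ne hao
  have hf : cm (R Q x) ⊓ fx (R Q a) = ⊥ :=
    (hr.fx_or (R_pow har) hIa hc).resolve_left fun h => ha1 (hall a ha h)
  have hcomm : Commute (R Q b) (R Q a) := by
    show R Q b * R Q a = R Q a * R Q b
    rw [← map_mul, ← map_mul, hab]
  obtain ⟨i, -, hi⟩ := hr.exists_triv (R_pow hbr) (R_pow har) hcomm hIb hIa hc hf
  rw [← map_pow, ← map_mul] at hi
  have h1 := hall (b * a ^ i) (mul_mem hb (pow_mem ha i)) hi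
  have h2 : b = (a ^ i)⁻¹ := eq_inv_of_mul_eq_one_left h1
  rw [h2]
  exact inv_mem (pow_mem (mem_zpowers a) i)

/-- the commutator space is nondegenerate, not of plus type -/
theorem cm_type (hr : PP (Nat.card F) 4 r) (hQ : Nondeg Q) {x : Cfsg.isometryGroup F ⇑Q} (hx : x ^ r = 1)
    (hc : finrank F (cm (R Q x)) = 4) :
    Nondeg (res Q (cm (R Q x))) ∧ ¬ IsPlus (res Q (cm (R Q x))) := by
  have := Fact.mk hr.prime
  have hx' : Iso Q (R Q x) r := Iso.mk' hr (by norm_num) (R_pow hx) (R_iso x)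
  refine ⟨nondeg_cm hQ hx'.iso hx'.ne0 hx'.pow, ?_⟩
  rw [isPlus_cm_iff hx'.two_lt hQ hx'.iso hx'.ne0 hx'.pow (ord_eq hr) (by decide) (A := 1) (by omega)]
  decide

/-- **subgroups of order `r` with a 4-dimensional commutator space are conjugate in `Ω`** -/
theorem conj_type0 (hr : PP (Nat.card F) 4 r) (hQ : Nondeg Q) (hι : Fintype.card ι = 8)
    {x y : Cfsg.isometryGroup F ⇑Q} (hx : x ^ r = 1) (hy : y ^ r = 1) (hcx : finrank F (cm (R Q x)) = 4)
    (hcy : finrank F (cm (R Q y)) = 4) : ∃ t ∈ Cfsg.Omega F ⇑Q, t * x * t⁻¹ ∈ zpowers y := by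
  have hrd := rd_of_pp hr (by norm_num)
  obtain ⟨h1, h2⟩ := cm_type hr hQ hx hcx
  obtain ⟨h3, h4⟩ := cm_type hr hQ hy hcy
  have hne : ∀ {z : Cfsg.isometryGroup F ⇑Q}, finrank F (cm (R Q z)) = 4 → z ≠ 1 := by
    rintro _ hz rfl
    have : cm (R Q (1 : Cfsg.isometryGroup F ⇑Q)) = ⊥ := by
      rw [map_one, cm, sub_self]
      exact LinearMap.range_zero
    rw [this, finrank_bot] at hz
    omega
  have hord : ∀ {z : Cfsg.isometryGroup F ⇑Q}, z ≠ 1 → z ^ r = 1 → orderOf z = r := by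
    intro z hz hzr
    have := Fact.mk hr.prime
    exact orderOf_eq_prime hzr hz
  obtain ⟨e, he⟩ := exists_equiv_of_isPlus_iff h1 h3 (by rw [hcx]; decide) (by rw [hcx, hcy])
    (iff_of_false h2 h4)
  obtain ⟨g, hg, hge⟩ := S0750.result Q (nondegenerate_of_nondeg hQ) (cm (R Q x)) (cm (R Q y)) e he
  obtain ⟨g', hg'⟩ : ∃ g' : Cfsg.isometryGroup F ⇑Q, ∀ v, R Q g' v = g v :=
    ⟨toIso Q g hg, fun v => by rw [H501.RowOmega.rho_apply]; exact toIso_mulVec Q g hg v⟩
  -- the conjugate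
  have hx' : g' * x * g'⁻¹ ∈ triv Q (fx (R Q y)) := by
    intro v hv
    rw [← perp_cm hQ (R_iso y) hrd.ne0 (R_pow hy), mem_perp] at hv
    have h5 : R Q g'⁻¹ v ∈ fx (R Q x) := by
      rw [← perp_cm hQ (R_iso x) hrd.ne0 (R_pow hx), mem_perp]
      intro w hw
      rw [← R_polar g', R_apply_inv, hg']
      have := hge ⟨w, hw⟩
      rw [show g w = g ((⟨w, hw⟩ : cm (R Q x)) : ι → F) from rfl, this]
      exact hv _ (e ⟨w, hw⟩).2
    rw [R_mul, R_mul, H951.mem_fx.1 h5, R_apply_inv]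
  have hxo : orderOf (g' * x * g'⁻¹) = r := by
    refine hord (fun h => hne hcx ?_) ?_
    · rwa [mul_inv_eq_one, mul_eq_left] at h
    · rw [conj_pow, hx, mul_one, mul_inv_cancel]
  have hyt : y ∈ triv Q (fx (R Q y)) := fun v hv => H951.mem_fx.1 hv
  obtain ⟨d, -, hd⟩ := conj_of_cyc hr.prime (noSq_triv hrd hQ hy hcy) hyt hx' (hord (hne hcy) hy) hxo
  -- adjusting
  have hadd := H951.finrank_fx_add_cm hrd.ne0 (R_pow hx)
  have hfx : Nondeg (res Q (fx (R Q x))) := by
    have h5 := nondeg_perp hQ h1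
    rwa [perp_cm hQ (R_iso x) hrd.ne0 (R_pow hx)] at h5
  obtain ⟨s, hs, hts⟩ := adjust hQ (by omega) hfx (by
    rw [hcx, Module.finrank_fintype_fun_eq_card, hι] at hadd
    omega) (K := centralizer {x}) (fun v hv hv0 => refl_comm hv hv0) (d * g')
  refine ⟨_, hts, ?_⟩
  have h6 : s * x = x * s := mem_centralizer_singleton_iff.1 hs
  have h7 : d * g' * s * x * (d * g' * s)⁻¹ = d * (g' * x * g'⁻¹) * d⁻¹ := by
    rw [mul_assoc (d * g') s x, h6]
    group
  rw [h7]
  exact hd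

end Cfsg.Agent.H953.O8
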