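import Cfsg.Agent.H953.Cyc.O8g

/-!
# Elements of order `r`, `ord_r(q) = 4`, with a 4-dimensional commutator space are real (helper953, S3679)

* `exists_ext` : isometries of a direct summand extend;
* `real_type0` : an element `w` of order `r` with `dim [V, w] = 4` is inverted by an element of `Ω(V)` trivial on `C_V(w)`.
-/

set_option autoImplicit false
set_option linter.unusedSectionVars false

namespace Cfsg.Agent.H953.O8

open Subgroup Module QuadraticMap Cfsg.Agent.LieClassical.OrthCore Cfsg.Agent.H955 Cfsg.Agent.H954.TSing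
  Cfsg.Agent.H884.El Cfsg.Agent.H899.Pt
open Cfsg.Agent.ClassicalGeometry.Reflection Cfsg.Agent.H175.OmegaAdjust
open Cfsg.Agent.H501.RowOmega (mt mt_mul mt_one mt_inj isom_polar)
open Cfsg.Agent.H951 (fx cm Inv)
open scoped MatrixGroups Matrix

universe u

variable {F : Type u} [Field F] [Fintype F] {ι : Type} [Fintype ι] [DecidableEq ι] {Q : QuadraticForm F (ι → F)}
  {r n : ℕ}
variable {κ : Type} [Fintype κ] [DecidableEq κ] {Q' : QuadraticForm F (κ → F)} {U Z : Submodule F (ι → F)}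

theorem R_inj_apply (g : Cfsg.isometryGroup F ⇑Q) : Function.Injective (R Q g) := fun v w h => by
  rw [← R_inv_apply g v, h, R_inv_apply]

/-- isometries of a direct summand extend -/
theorem exists_ext (hUZ : IsCompl U Z) (hp : ∀ u ∈ U, ∀ z ∈ Z, polar ⇑Q u z = 0) (e : Z ≃ₗ[F] (κ → F))
    (he : ∀ z : Z, Q' (e z) = Q (z : ι → F)) :
    ∃ φ : Cfsg.isometryGroup F ⇑Q' →* Cfsg.isometryGroup F ⇑Q, (∀ g, ∀ u ∈ U, R Q (φ g) u = u) ∧
      (∀ g (z : Z), R Q (φ g) (z : ι → F) = (e.symm (R Q' g (e z)) : Z)) := by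
  have h1 : ∀ g : Cfsg.isometryGroup F ⇑Q', ∃ h : Cfsg.isometryGroup F ⇑Q, ∀ (u : U) (z : Z),
      R Q h ((u : ι → F) + z) = u + (e.symm (R Q' g (e z)) : Z) := by
    intro g
    obtain ⟨E, hE⟩ : ∃ E : (κ → F) ≃ₗ[F] (κ → F), ∀ v, E v = R Q' g v :=
      ⟨LinearEquiv.ofInjectiveEndo (R Q' g) (R_inj_apply g), fun v => rfl⟩
    obtain ⟨L, hL⟩ : ∃ L : (ι → F) ≃ₗ[F] (ι → F), ∀ (u : U) (z : Z),
        L ((u : ι → F) + z) = u + (e.symm (E (e z)) : Z) := by
      refine ⟨(Submodule.prodEquivOfIsCompl U Z hUZ).symm.trans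
        (((LinearEquiv.refl F U).prodCongr (e.trans (E.trans e.symm))).trans
          (Submodule.prodEquivOfIsCompl U Z hUZ)), fun u z => ?_⟩
      have h2 : (Submodule.prodEquivOfIsCompl U Z hUZ).symm ((u : ι → F) + z) = (u, z) := by
        rw [LinearEquiv.symm_apply_eq]
        rfl
      rw [LinearEquiv.trans_apply, h2]
      rfl
    have hLQ : ∀ v, Q (L v) = Q v := by
      intro v
      have h3 : v ∈ U ⊔ Z := by rw [hUZ.sup_eq_top]; trivial
      obtain ⟨u, hu, z, hz, rfl⟩ := Submodule.mem_sup.1 h3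
      have h4 : ∀ z' : Z, Q (u + z') = Q u + Q (z' : ι → F) := by
        intro z'
        have := hp u hu z' z'.2
        rw [polar, sub_sub, sub_eq_zero] at this
        exact this
      have h5 := hL ⟨u, hu⟩ ⟨z, hz⟩
      have h6 := h4 ⟨z, hz⟩
      dsimp only at h5 h6
      rw [h5, h4, h6, ← he, e.apply_symm_apply, hE, R_iso, he]
    refine ⟨toIso Q L hLQ, fun u z => ?_⟩
    have h7 : R Q (toIso Q L hLQ) ((u : ι → F) + z) = L (u + z) := by
      rw [H501.RowOmega.rho_apply]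
      exact toIso_mulVec Q L hLQ _
    rw [h7, hL, hE]
  choose f hf using h1
  have hfu : ∀ g, ∀ u ∈ U, R Q (f g) u = u := by
    intro g u hu
    have h2 := hf g ⟨u, hu⟩ 0
    rw [Submodule.coe_zero, add_zero, map_zero, map_zero, map_zero, Submodule.coe_zero, add_zero] at h2
    exact h2
  have hfz : ∀ g (z : Z), R Q (f g) (z : ι → F) = (e.symm (R Q' g (e z)) : Z) := by
    intro g z
    have h2 := hf g 0 z
    rw [Submodule.coe_zero, zero_add, zero_add] at h2
    exact h2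
  have hmul : ∀ g h, f (g * h) = f g * f h := by
    intro g h
    apply R_injective
    apply LinearMap.ext
    intro v
    have h3 : v ∈ U ⊔ Z := by rw [hUZ.sup_eq_top]; trivial
    obtain ⟨u, hu, z, hz, rfl⟩ := Submodule.mem_sup.1 h3
    rw [R_mul, map_add, map_add (R Q (f h)), map_add (R Q (f g)), hfu _ u hu, hfu _ u hu, hfu _ u hu]
    have h4 := hfz (g * h) ⟨z, hz⟩
    have h5 := hfz h ⟨z, hz⟩
    dsimp only at h4 h5
    rw [h4, h5, hfz, e.apply_symm_apply, R_mul]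
  refine ⟨MonoidHom.mk' f hmul, hfu, hfz⟩

/-- every isometry trivial on `U` comes from an isometry of the perp -/
theorem exists_of_triv (hUZ : IsCompl U Z) (hZ : Z = perp Q U) (e : Z ≃ₗ[F] (κ → F))
    (he : ∀ z : Z, Q' (e z) = Q (z : ι → F)) {φ : Cfsg.isometryGroup F ⇑Q' →* Cfsg.isometryGroup F ⇑Q}
    (hφu : ∀ g, ∀ u ∈ U, R Q (φ g) u = u)
    (hφz : ∀ g (z : Z), R Q (φ g) (z : ι → F) = (e.symm (R Q' g (e z)) : Z)) {h : Cfsg.isometryGroup F ⇑Q}
    (hh : h ∈ triv Q U) : ∃ g, φ g = h := by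
  have hI : Inv (R Q h) Z := by rw [hZ]; exact inv_perp hh
  have hI' : ∀ z ∈ Z, R Q h z ∈ Z := hI
  obtain ⟨E, hE⟩ : ∃ E : (κ → F) ≃ₗ[F] (κ → F), ∀ v, (e.symm (E v) : ι → F) = R Q h (e.symm v : Z) := by
    refine ⟨e.symm.trans ((LinearEquiv.ofInjectiveEndo ((R Q h).restrict hI') ?_).trans e), fun v => ?_⟩
    · intro x y hxy
      apply Subtype.ext
      apply R_inj_apply h
      exact congrArg Subtype.val hxy
    · rw [LinearEquiv.trans_apply, LinearEquiv.trans_apply, e.symm_apply_apply]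
      rfl
  have hEQ : ∀ v, Q' (E v) = Q' v := by
    intro v
    have h1 := he (e.symm (E v))
    have h2 := he (e.symm v)
    rw [e.apply_symm_apply] at h1 h2
    rw [h1, h2, hE, R_iso]
  refine ⟨toIso Q' E hEQ, ?_⟩
  apply R_injective
  apply LinearMap.ext
  intro v
  have h3 : v ∈ U ⊔ Z := by rw [hUZ.sup_eq_top]; trivial
  obtain ⟨u, hu, z, hz, rfl⟩ := Submodule.mem_sup.1 h3
  have h4 := hφz (toIso Q' E hEQ) ⟨z, hz⟩
  dsimp only at h4
  have h5 : R Q' (toIso Q' E hEQ) (e ⟨z, hz⟩) = E (e ⟨z, hz⟩) := by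
    rw [H501.RowOmega.rho_apply]
    exact toIso_mulVec Q' E hEQ _
  rw [map_add, map_add, hφu _ u hu, hh u hu, h4, h5, hE, e.symm_apply_apply]

theorem map_Omega {κ : Type} [Fintype κ] [DecidableEq κ] {Q' : QuadraticForm F (κ → F)}
    (φ : Cfsg.isometryGroup F ⇑Q' →* Cfsg.isometryGroup F ⇑Q) {g : Cfsg.isometryGroup F ⇑Q'}
    (hg : g ∈ Cfsg.Omega F ⇑Q') : φ g ∈ Cfsg.Omega F ⇑Q := by
  have h1 : φ g ∈ (commutator (Cfsg.isometryGroup F ⇑Q')).map φ := Subgroup.mem_map_of_mem φ hg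
  have h2 : (commutator (Cfsg.isometryGroup F ⇑Q')).map φ ≤ commutator (Cfsg.isometryGroup F ⇑Q) := by
    rw [_root_.commutator_def, _root_.commutator_def, Subgroup.map_commutator]
    exact Subgroup.commutator_mono le_top le_top
  exact h2 h1

/-- **an element of order `r` with a 4-dimensional commutator space is inverted by an element of `Ω`
trivial on its fixed space** -/
theorem real_type0 (hr : PP (Nat.card F) 4 r) (hQ : Nondeg Q) {w : Cfsg.isometryGroup F ⇑Q}
    (hw : w ^ r = 1) (hc : finrank F (cm (R Q w)) = 4) :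
    ∃ t ∈ Cfsg.Omega F ⇑Q, t ∈ triv Q (fx (R Q w)) ∧ t * w * t⁻¹ = w⁻¹ := by
  have hrd := rd_of_pp hr (by norm_num)
  obtain ⟨h1, h2⟩ := cm_type hr hQ hw hc
  obtain ⟨a, b, hab⟩ := exists_aniso_coeff F
  obtain ⟨e, he⟩ := exists_minus_equiv hab 1 (res Q (cm (R Q w))) h1 (by rw [hc]) h2
  have hUZ : IsCompl (fx (R Q w)) (cm (R Q w)) := H951.isCompl_fx_cm hrd.ne0 (R_pow hw)
  have hfx : perp Q (cm (R Q w)) = fx (R Q w) := perp_cm hQ (R_iso w) hrd.ne0 (R_pow hw)
  have hZ : cm (R Q w) = perp Q (fx (R Q w)) := by rw [← hfx, perp_perp hQ]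
  have hp : ∀ u ∈ fx (R Q w), ∀ z ∈ cm (R Q w), polar ⇑Q u z = 0 := by
    intro u hu z hz
    rw [hZ, mem_perp] at hz
    exact hz u hu
  have he' : ∀ z : cm (R Q w), LieClassical.QuadForms.minusForm 1 F a b (e z) = Q (z : ι → F) := he
  obtain ⟨φ, hφu, hφz⟩ := exists_ext hUZ hp e he'
  obtain ⟨g, hg⟩ := exists_of_triv hUZ hZ e he' hφu hφz (h := w) (fun v hv => H951.mem_fx.1 hv)
  have hφi : Function.Injective φ := by
    intro g₁ g₂ h
    apply R_injective
    apply LinearMap.ext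
    intro v
    have h3 := hφz g₁ (e.symm v)
    rw [h, hφz g₂, e.apply_symm_apply] at h3
    exact e.symm.injective (Subtype.ext h3.symm)
  have hgr : g ^ r = 1 := hφi (by rw [map_pow, hg, hw, map_one])
  obtain ⟨t, ht, htg⟩ := real_minus hr hab hgr
  refine ⟨φ t, map_Omega φ ht, fun u hu => hφu t u hu, ?_⟩
  rw [← hg, ← map_inv, ← map_mul, ← map_mul, htg, map_inv]

end Cfsg.Agent.H953.O8
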