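import Cfsg.Agent.H953.Cyc.O8i
import Cfsg.Agent.H946.DK.Main

/-!
# Two commuting copies of a simple group in `PΩ₈⁺(q)` (helper953, S3679)

* `pair_conj` : `S × S ≤ PΩ₈⁺(q)`, `s ∈ S` of order `r`, `ord_r(q) = 4`, real: `⟨(1, s)⟩` and `⟨(s, 1)⟩` are conjugate;
* `struct` : `S ≅ PSL₂(q²)` or `|S|` is small.
-/

set_option autoImplicit false
set_option linter.unusedSectionVars false

namespace Cfsg.Agent.H953.O8

open Subgroup Module QuadraticMap Cfsg.Agent.LieClassical.OrthCore Cfsg.Agent.H955 Cfsg.Agent.H954.TSing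
  Cfsg.Agent.H884.El Cfsg.Agent.H899.Pt Cfsg.Agent.H436
open Cfsg.Agent.H951 (fx cm Inv mem_fx)
open scoped MatrixGroups Matrix

universe u

variable {F : Type u} [Field F] [Fintype F] {p r f : ℕ}

theorem rho_eq (g : Cfsg.Omega F (Cfsg.quadFormPlus 4 F)) :
    rho F g = R (LieClassical.QuadForms.plusForm 4 F) g.1 := by
  exact LinearMap.ext fun v => rfl

theorem card8 : Fintype.card (Fin 4 ⊕ Fin 4) = 8 := by simp

theorem conj0 (hr : PP (Nat.card F) 4 r) {x y : Cfsg.Omega F (Cfsg.quadFormPlus 4 F)} (hx : x ^ r = 1)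
    (hy : y ^ r = 1) (hcx : finrank F (cm (rho F x)) = 4) (hcy : finrank F (cm (rho F y)) = 4) :
    ∃ t : Cfsg.Omega F (Cfsg.quadFormPlus 4 F), t * x * t⁻¹ ∈ zpowers y := by
  rw [rho_eq] at hcx hcy
  obtain ⟨t, ht, h⟩ := conj_type0 (Q := LieClassical.QuadForms.plusForm 4 F) hr (H955.nondeg_plus 4) card8
    (congrArg Subtype.val hx) (congrArg Subtype.val hy) hcx hcy
  refine ⟨⟨t, ht⟩, ?_⟩
  obtain ⟨k, hk⟩ := mem_zpowers_iff.1 h
  exact mem_zpowers_iff.2 ⟨k, Subtype.ext hk⟩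

theorem conj8 (hr : PP (Nat.card F) 4 r) {x y s : Cfsg.Omega F (Cfsg.quadFormPlus 4 F)} (hx : x ^ r = 1)
    (hy : y ^ r = 1) (hxy : x * y = y * x) (hfx : fx (rho F x) = ⊥) (hfy : fx (rho F y) = ⊥) (hsx : s * x = x * s)
    (hsy : s * y * s⁻¹ = y⁻¹) (hne : ∀ i : ℕ, x * y ^ i ≠ 1) :
    ∃ t : Cfsg.Omega F (Cfsg.quadFormPlus 4 F), t * x * t⁻¹ ∈ zpowers y := by
  rw [rho_eq] at hfx hfy
  obtain ⟨t, ht, h⟩ := conj_type8 (Q := LieClassical.QuadForms.plusForm 4 F) hr (H955.nondeg_plus 4) card8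
    (x := x.1) (y := y.1) (s := s.1)
    (congrArg Subtype.val hx) (congrArg Subtype.val hy) (congrArg Subtype.val hxy) hfx hfy
    (congrArg Subtype.val hsx) (congrArg Subtype.val hsy) (fun i hi => hne i (Subtype.ext hi))
  refine ⟨⟨t, ht⟩, ?_⟩
  obtain ⟨k, hk⟩ := mem_zpowers_iff.1 h
  exact mem_zpowers_iff.2 ⟨k, Subtype.ext hk⟩

theorem proj_ker' : ∀ k : Cfsg.Omega F (Cfsg.quadFormPlus 4 F), proj F k = 1 → k ^ 2 = 1 ∧ ∀ g, k * g = g * k := by
  intro k hk
  obtain ⟨h1, h2⟩ := proj_ker k (MonoidHom.mem_ker.2 hk)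
  exact ⟨by rw [pow_two, h1], fun g => (h2 g).symm⟩

/-- kernel elements are scalars -/
theorem ker_scalar {k : Cfsg.Omega F (Cfsg.quadFormPlus 4 F)} (hk : k ∈ (proj F).ker) :
    ∃ c : F, rho F k = c • 1 := by
  have hG : LieClassical.OrthTrans.Good (LieClassical.OrthForms.plusForm 4 F) :=
    ClassicalGeometry.OrthSemiForms.good_plus (by norm_num)
  have hk' : k ∈ center (Cfsg.Omega F (Cfsg.quadFormPlus 4 F)) := by
    rwa [proj, QuotientGroup.ker_mk'] at hk
  have key : ∀ x : Cfsg.Omega F ⇑(LieClassical.OrthForms.plusForm 4 F), x ∈ center _ →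
      ∃ c : F, ∀ v : Fin 4 ⊕ Fin 4 → F,
        ((x.1.1 : GL (Fin 4 ⊕ Fin 4) F) : Matrix (Fin 4 ⊕ Fin 4) (Fin 4 ⊕ Fin 4) F) *ᵥ v = c • v := by
    intro x hx
    let e : Cfsg.Omega F ⇑(LieClassical.OrthForms.plusForm 4 F) ≃*
        ↥(LieClassical.OrthCore.E (LieClassical.OrthForms.plusForm 4 F)) :=
      (LieClassical.OrthFinite.omegaEquiv _).trans (MulEquiv.subgroupCongr hG.commutator_eq_E)
    have h1 : e x ∈ center _ := by
      rw [← LieClassical.OrthFinite.map_center_mulEquiv e]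
      exact ⟨x, hx, rfl⟩
    obtain ⟨c, hc⟩ := ClassicalGeometry.OrthAut1.center_scalar hG h1
    refine ⟨c, fun v => ?_⟩
    rw [← hc v]
    rfl
  obtain ⟨c, hc⟩ := key k hk'
  refine ⟨c, LinearMap.ext fun v => ?_⟩
  rw [rho_apply, hc]
  rfl

/-- a perfect group commuting with an element with a 4-dimensional commutator space -/
theorem cm_of_comm (hr : PP (Nat.card F) 4 r) {x y : Cfsg.Omega F (Cfsg.quadFormPlus 4 F)} (hx : x ^ r = 1)
    (hy : y ^ r = 1) (hy1 : y ≠ 1) (hcx : finrank F (cm (rho F x)) = 4)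
    {H : Subgroup (Cfsg.POmega F (Cfsg.quadFormPlus 4 F))} (hH : ⁅H, H⁆ = H)
    (hHx : ∀ h ∈ H, h * proj F x = proj F x * h) (hyH : proj F y ∈ H) : finrank F (cm (rho F y)) = 4 := by
  have hfO := finite_omega (F := F)
  have hrodd : Odd r := hr.odd (by norm_num)
  have hrd := rd_of_pp hr (by norm_num)
  obtain ⟨K, hK, hKH⟩ := exists_perfect_lift (proj F) proj_surjective hH
  have hπK : ∀ g ∈ K, proj F g ∈ H := fun g hg => hKH ▸ ⟨g, hg, rfl⟩
  have hKx : ∀ g ∈ K, g * x = x * g := fun g hg =>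
    (comm_lift hrodd (proj F) proj_ker' hx (hHx _ (hπK g hg)).symm).symm
  have hyK : y ∈ K := by
    rw [← hKH] at hyH
    obtain ⟨k, hk, hky⟩ := hyH
    have h1 : proj F (k⁻¹ * y) = 1 := by rw [map_mul, map_inv, hky, inv_mul_cancel]
    obtain ⟨h2, h3⟩ := proj_ker' _ h1
    have h4 : y = k * (k⁻¹ * y) := by group
    obtain ⟨j, hj⟩ := hrodd
    have h5 : y ^ (r + 1) = k ^ (r + 1) := by
      have hc : Commute k (k⁻¹ * y) := (h3 k).symm
      rw [h4, hc.mul_pow, show r + 1 = 2 * (j + 1) by omega, pow_mul (k⁻¹ * y), h2, one_pow, mul_one]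
    rw [pow_succ, hy, one_mul] at h5
    rw [h5]
    exact pow_mem hk _
  have hKt : commutator K = ⊤ := by
    apply Subgroup.map_injective K.subtype_injective
    rw [_root_.commutator_def, Subgroup.map_commutator, ← MonoidHom.range_eq_map, Subgroup.range_subtype, hK]
  have hIso : Iso (LieClassical.QuadForms.plusForm 4 F) (rho F x) r :=
    Iso.mk' hr (by norm_num) (by rw [← map_pow, hx, map_one]) (rho_iso x)
  have htriv := perfect_trivial hIso hr hcx hKt ((rho F).comp K.subtype) (by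
    intro g v
    show (rho F g.1 * rho F x) v = (rho F x * rho F g.1) v
    rw [← map_mul, ← map_mul, hKx g.1 g.2]) ⟨y, hyK⟩
  have hle : cm (rho F x) ≤ fx (rho F y) := fun v hv => mem_fx.2 (htriv v hv)
  have h1 := Submodule.finrank_mono hle
  have hyr : (rho F y) ^ r = 1 := by rw [← map_pow, hy, map_one]
  have h2 := H951.finrank_fx_add_cm hrd.ne0 hyr
  have h3 := hrd.le_cm hyr (fun h => hy1 (rho_injective (by rw [h, map_one])))
  rw [Module.finrank_fintype_fun_eq_card, card8] at h2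
  omega

section pair

variable {S : Type*} [Group S] [Finite S]

theorem range_perfect (hS : IsSimpleGroup S) (hna : ¬ IsMulCommutative S) {T : Type*} [Group T] (φ : S →* T) :
    ⁅φ.range, φ.range⁆ = φ.range := by
  rw [MonoidHom.range_eq_map, ← Subgroup.map_commutator, ← _root_.commutator_def, H235.ExtOut.commutator_eq_top hna]

/-- **conjugacy of the elements of order `r` of the two factors** -/
theorem pair_conj (hr : PP (Nat.card F) 4 r) (hS : IsSimpleGroup S) (hna : ¬ IsMulCommutative S)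
    (ψ : S × S →* Cfsg.POmega F (Cfsg.quadFormPlus 4 F)) (hψ : Function.Injective ψ) {s g : S} (hs : orderOf s = r)
    (hg : g * s * g⁻¹ = s⁻¹) : ∃ t, t * ψ (1, s) * t⁻¹ ∈ zpowers (ψ (s, 1)) := by
  have hrodd : Odd r := hr.odd (by norm_num)
  have hrd := rd_of_pp hr (by norm_num)
  have hsr : s ^ r = 1 := by rw [← hs, pow_orderOf_eq_one]
  have hs1 : s ≠ 1 := by
    rintro rfl
    rw [orderOf_one] at hs
    exact hr.prime.one_lt.ne hs
  have hxr : (ψ (1, s)) ^ r = 1 := by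
    rw [← map_pow, Prod.pow_mk, hsr, one_pow]
    exact map_one ψ
  have hyr : (ψ (s, 1)) ^ r = 1 := by
    rw [← map_pow, Prod.pow_mk, hsr, one_pow]
    exact map_one ψ
  obtain ⟨x, hx, hxr', hxc⟩ := lift_elt (proj F) proj_surjective proj_ker hrodd hxr
  obtain ⟨y, hy, hyr', hyc⟩ := lift_elt (proj F) proj_surjective proj_ker hrodd hyr
  have hcomm : ∀ a b : S, ψ (a, 1) * ψ (1, b) = ψ (1, b) * ψ (a, 1) := by
    intro a b
    rw [← map_mul, ← map_mul]
    simp
  have hx1 : x ≠ 1 := by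
    rintro rfl
    rw [map_one] at hx
    exact hs1 (congrArg Prod.snd (hψ (hx.symm.trans (map_one ψ).symm)))
  have hy1 : y ≠ 1 := by
    rintro rfl
    rw [map_one] at hy
    exact hs1 (congrArg Prod.fst (hψ (hy.symm.trans (map_one ψ).symm)))
  suffices h : ∃ t : Cfsg.Omega F (Cfsg.quadFormPlus 4 F), t * x * t⁻¹ ∈ zpowers y by
    obtain ⟨t, ht⟩ := h
    obtain ⟨k, hk⟩ := mem_zpowers_iff.1 ht
    refine ⟨proj F t, mem_zpowers_iff.2 ⟨k, ?_⟩⟩
    rw [← hx, ← hy, ← map_zpow, hk, map_mul, map_mul, map_inv]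
  have hd : ∀ {w : Cfsg.Omega F (Cfsg.quadFormPlus 4 F)}, w ^ r = 1 → w ≠ 1 →
      finrank F (cm (rho F w)) = 4 ∨ fx (rho F w) = ⊥ := by
    intro w hw hw1
    have hwr : (rho F w) ^ r = 1 := by rw [← map_pow, hw, map_one]
    have h1 := hrd.dvd_cm hwr
    have h2 := hrd.le_cm hwr (fun h => hw1 (rho_injective (by rw [h, map_one])))
    have h3 := H951.finrank_fx_add_cm hrd.ne0 hwr
    rw [Module.finrank_fintype_fun_eq_card, card8] at h3
    by_cases h4 : finrank F (cm (rho F w)) = 4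
    · exact .inl h4
    · exact .inr (Submodule.finrank_eq_zero.1 (by omega))
  rcases hd hxr' hx1 with h4 | hfx
  · refine conj0 hr hxr' hyr' h4 ?_
    refine cm_of_comm hr hxr' hyr' hy1 h4 (range_perfect hS hna (ψ.comp (MonoidHom.inl S S))) ?_ ?_
    · rintro _ ⟨a, rfl⟩
      rw [hx]
      exact hcomm a s
    · rw [hy]
      exact ⟨s, rfl⟩
  rcases hd hyr' hy1 with h4 | hfy
  · refine conj0 hr hxr' hyr' ?_ h4
    refine cm_of_comm hr hyr' hxr' hx1 h4 (range_perfect hS hna (ψ.comp (MonoidHom.inr S S))) ?_ ?_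
    · rintro _ ⟨a, rfl⟩
      rw [hy]
      exact (hcomm s a).symm
    · rw [hx]
      exact ⟨s, rfl⟩
  obtain ⟨t, ht⟩ := proj_surjective (ψ (g, 1))
  have hxy : x * y = y * x := (hxc y (by rw [hy]; exact hcomm s s)).symm
  have htx : t * x = x * t := hxc t (by rw [ht]; exact hcomm g s)
  have hty : t * y * t⁻¹ = y⁻¹ := by
    obtain ⟨k, hk⟩ : ∃ k, k = t * y * t⁻¹ * y := ⟨_, rfl⟩
    have h1 : proj F k = 1 := by
      rw [hk, map_mul, map_mul, map_mul, map_inv, ht, hy, ← map_inv, ← map_mul, ← map_mul, ← map_mul]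
      have h2 : ((g, 1) : S × S) * (s, 1) * (g, 1)⁻¹ * (s, 1) = 1 := by
        rw [Prod.inv_mk, Prod.mk_mul_mk, Prod.mk_mul_mk, Prod.mk_mul_mk, hg, inv_mul_cancel]
        simp
      rw [h2, map_one]
    obtain ⟨h2, h3⟩ := proj_ker' k h1
    have h4 : t * y * t⁻¹ = k * y⁻¹ := by rw [hk]; group
    have h5 : (k * y⁻¹) ^ r = 1 := by rw [← h4, conj_pow, hyr', mul_one, mul_inv_cancel]
    have h6 : Commute k y⁻¹ := h3 y⁻¹
    rw [h6.mul_pow, inv_pow, hyr', inv_one, mul_one] at h5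
    obtain ⟨j, hj⟩ := hrodd
    rw [hj, pow_succ, pow_mul, h2, one_pow, one_mul] at h5
    rw [h4, h5, one_mul]
  refine conj8 hr hxr' hyr' hxy hfx hfy htx hty ?_
  intro i hi
  have h1 : ψ ((1, s) * (s, 1) ^ i) = 1 := by
    rw [map_mul, map_pow, ← hx, ← hy, ← map_pow, ← map_mul, hi, map_one]
  have h2 := hψ (h1.trans (map_one ψ).symm)
  have h3 : s = 1 := by
    have := congrArg Prod.snd h2
    simpa using this
  exact hs1 h3

end pair

end Cfsg.Agent.H953.O8
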