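import Cfsg.Agent.H953.Cyc.O8j
import Cfsg.Agent.H946.DK.Dick

/-!
# Two commuting copies of a simple group in `PΩ₈⁺(q)`: structure (helper953, S3679)

`struct` : `S × S ≤ PΩ₈⁺(q)`, `r ∣ |S|`, `ord_r(q) = 4`: `S ≅ PSL₂(q²)`, or `|S| ∣ 2 (q² + 1) / d`, or `r = 5`, `|S| ∣ 60`.
-/

set_option autoImplicit false
set_option linter.unusedSectionVars false

namespace Cfsg.Agent.H953.O8

open Subgroup Module QuadraticMap Cfsg.Agent.LieClassical.OrthCore Cfsg.Agent.H955 Cfsg.Agent.H954.TSing
  Cfsg.Agent.H884.El Cfsg.Agent.H899.Pt Cfsg.Agent.H436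
open Cfsg.Agent.H951 (fx cm Inv mem_fx)
open scoped MatrixGroups Matrix

universe u

variable {F : Type u} [Field F] [Fintype F] {p r f : ℕ}

/-- the order of the kernel -/
theorem not_dvd_ker (hr : r.Prime) (hr2 : Odd r) : ¬ r ∣ Nat.card (proj F).ker := by
  intro h
  have hfO := finite_omega (F := F)
  have := Fact.mk hr
  obtain ⟨k, hk⟩ := exists_prime_orderOf_dvd_card' r h
  have h1 := (proj_ker' (k : Cfsg.Omega F (Cfsg.quadFormPlus 4 F)) (MonoidHom.mem_ker.1 k.2)).1
  have h2 : k ^ 2 = 1 := Subtype.ext h1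
  have h3 := orderOf_dvd_of_pow_eq_one h2
  rw [hk] at h3
  have h4 := (Nat.prime_dvd_prime_iff_eq hr Nat.prime_two).1 h3
  rw [h4] at hr2
  exact absurd hr2 (by decide)

variable {S : Type*} [Group S] [Finite S]

/-- a group commuting with an element with a 4-dimensional commutator space -/
theorem struct_four (hr : PP (Nat.card F) 4 r) (hp : p.Prime) (hf : 1 ≤ f) (hF : Fintype.card F = p ^ f)
    (hrP : Prim p (4 * f) r) (hS : IsSimpleGroup S) (hna : ¬ IsMulCommutative S)
    (ψ : S →* Cfsg.POmega F (Cfsg.quadFormPlus 4 F)) (hψ : Function.Injective ψ) (hrS : r ∣ Nat.card S)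
    {x : Cfsg.Omega F (Cfsg.quadFormPlus 4 F)} (hx : x ^ r = 1) (hcx : finrank F (cm (rho F x)) = 4)
    (hcomm : ∀ s, ψ s * proj F x = proj F x * ψ s) :
    (∃ (E : Type) (_ : Field E) (_ : Fintype E), Fintype.card E = p ^ (2 * f) ∧
      Nonempty (S ≃* Matrix.ProjectiveSpecialLinearGroup (Fin 2) E)) ∨ (r = 5 ∧ Nat.card S ∣ 60) ∨
      Nat.card S ∣ 2 * ((p ^ (2 * f) + 1) / Nat.gcd 2 (p ^ (2 * f) - 1)) := by
  classical
  have hpf := Fact.mk hp
  have hfO := finite_omega (F := F)
  have hrodd : Odd r := hr.odd (by norm_num)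
  obtain ⟨K, hK, hKH⟩ := exists_perfect_lift (proj F) proj_surjective (range_perfect hS hna ψ)
  have hπK : ∀ g ∈ K, proj F g ∈ ψ.range := fun g hg => hKH ▸ ⟨g, hg, rfl⟩
  have hKx : ∀ g ∈ K, g * x = x * g := fun g hg => by
    obtain ⟨s, hs⟩ := hπK g hg
    exact (comm_lift hrodd (proj F) proj_ker' hx (by rw [← hs, hcomm])).symm
  have hKt : commutator K = ⊤ := by
    apply Subgroup.map_injective K.subtype_injective
    rw [_root_.commutator_def, Subgroup.map_commutator, ← MonoidHom.range_eq_map, Subgroup.range_subtype, hK]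
  have hIso : Iso (LieClassical.QuadForms.plusForm 4 F) (rho F x) r :=
    Iso.mk' hr (by norm_num) (by rw [← map_pow, hx, map_one]) (rho_iso x)
  obtain ⟨a, b, hab, φ, hφ⟩ := exists_minus_hom hIso hr (H955.nondeg_plus 4) (H955.finrank_plus 4) (H955.isPlus_plus 4)
    hcx hKt ((rho F).comp K.subtype) (rho_injective.comp K.subtype_injective) (fun g v => rho_iso g.1 v) (by
      intro g v
      show (rho F g.1 * rho F x) v = (rho F x * rho F g.1) v
      rw [← map_mul, ← map_mul, hKx g.1 g.2])
  -- the field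
  let E := GaloisField p (2 * f)
  have hEfin : Finite E := Nat.finite_of_card_ne_zero (by
    rw [GaloisField.card p (2 * f) (by omega)]
    exact pow_ne_zero _ hp.ne_zero)
  let _ : Fintype E := Fintype.ofFinite E
  have hE : Fintype.card E = p ^ (2 * f) := by
    rw [← Nat.card_eq_fintype_card, GaloisField.card p (2 * f) (by omega)]
  have hE' : Fintype.card E = (Fintype.card F) ^ 2 := by
    rw [hE, hF, ← pow_mul, mul_comm]
  obtain ⟨e⟩ := S0300.result rfl hE' a b hab
  let χ : K →* Matrix.ProjectiveSpecialLinearGroup (Fin 2) E :=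
    e.toMonoidHom.comp ((QuotientGroup.mk' (center (Cfsg.Omega F (Cfsg.quadFormMinus 1 F a b)))).comp φ)
  let α : K →* Cfsg.POmega F (Cfsg.quadFormPlus 4 F) := (proj F).comp K.subtype
  have hα : α.range = ψ.range := by
    show ((proj F).comp K.subtype).range = _
    rw [MonoidHom.range_comp, Subgroup.range_subtype, hKH]
  have hcS : center S = ⊥ := H427.center_eq_bot_of_simple hS hna
  have h1 : χ.ker ≤ α.ker := by
    intro z hz
    have h2 : φ z ∈ center (Cfsg.Omega F (Cfsg.quadFormMinus 1 F a b)) := by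
      have h3 : e (QuotientGroup.mk (φ z)) = 1 := hz
      have h4 : (QuotientGroup.mk (φ z) : Cfsg.POmega F (Cfsg.quadFormMinus 1 F a b)) = 1 :=
        e.injective (h3.trans (map_one e).symm)
      exact (QuotientGroup.eq_one_iff _).1 h4
    have h3 : ∀ g, g * z = z * g := by
      intro g
      apply hφ
      rw [map_mul, map_mul]
      exact mem_center_iff.1 h2 (φ g)
    rw [MonoidHom.mem_ker]
    obtain ⟨s, hs⟩ := hπK z z.2
    have h4 : s ∈ center S := by
      rw [mem_center_iff]
      intro t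
      apply hψ
      obtain ⟨g, hg, hgt⟩ : ψ t ∈ K.map (proj F) := by rw [hKH]; exact ⟨t, rfl⟩
      rw [map_mul, map_mul, hs, ← hgt, ← map_mul, ← map_mul]
      exact congrArg (proj F) (congrArg Subtype.val (h3 ⟨g, hg⟩))
    rw [hcS, mem_bot] at h4
    show proj F z = 1
    rw [← hs, h4, map_one]
  have hcard : Nat.card S = α.ker.index := by
    rw [Subgroup.index_ker, hα]
    exact Nat.card_congr (ψ.ofInjective hψ).toEquiv
  have hdvd : Nat.card S ∣ Nat.card χ.range := by
    rw [hcard, ← Subgroup.index_ker]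
    exact Subgroup.index_dvd_of_le h1
  have hE3 : 3 < Fintype.card E := by
    rw [hE']
    have hq : 1 < Fintype.card F := Fintype.one_lt_card
    have : 2 ^ 2 ≤ Fintype.card F ^ 2 := Nat.pow_le_pow_left hq 2
    omega
  by_cases htop : χ.range = ⊤
  · left
    have hsurj : Function.Surjective χ := MonoidHom.range_eq_top.1 htop
    have hcP : center (Matrix.ProjectiveSpecialLinearGroup (Fin 2) E) = ⊥ :=
      H427.center_eq_bot_of_simple (TwoFusion.SLTwoFacts.isSimpleGroup_psl hE3) (H716.S5.not_comm_psl_two hE3)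
    have h2 : α.ker ≤ χ.ker := by
      intro z hz
      have hz1 : proj F z = 1 := hz
      have h3 : χ z ∈ center (Matrix.ProjectiveSpecialLinearGroup (Fin 2) E) := by
        rw [mem_center_iff]
        intro g
        obtain ⟨k, rfl⟩ := hsurj g
        rw [← map_mul, ← map_mul]
        congr 1
        exact Subtype.ext ((proj_ker' (z : Cfsg.Omega F (Cfsg.quadFormPlus 4 F)) hz1).2 k).symm
      rw [hcP, mem_bot] at h3
      exact h3
    have h3 : χ.ker = α.ker := le_antisymm h1 h2
    refine ⟨E, inferInstance, inferInstance, hE, ⟨?_⟩⟩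
    exact (ψ.ofInjective hψ).trans ((MulEquiv.subgroupCongr hα.symm).trans
      ((QuotientGroup.quotientKerEquivRange α).symm.trans ((QuotientGroup.quotientMulEquivOfEq h3.symm).trans
        (QuotientGroup.quotientKerEquivOfSurjective χ hsurj))))
  · right
    rcases H946.DK.card_dvd_of_prim hp hE (by omega) (by rwa [show 2 * (2 * f) = 4 * f by omega]) χ.range htop
      (hrS.trans hdvd) with h2 | ⟨h2, ⟨e'⟩⟩
    · exact .inr (hdvd.trans h2)
    · refine .inl ⟨h2, ?_⟩
      rw [Nat.card_congr e'.toEquiv, H946.DK.card_alt5] at hdvd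
      exact hdvd

/-- **structure** -/
theorem struct (hr : PP (Nat.card F) 4 r) (hp : p.Prime) (hf : 1 ≤ f) (hF : Fintype.card F = p ^ f)
    (hrP : Prim p (4 * f) r) (hS : IsSimpleGroup S) (hna : ¬ IsMulCommutative S)
    (ψ : S × S →* Cfsg.POmega F (Cfsg.quadFormPlus 4 F)) (hψ : Function.Injective ψ) (hrS : r ∣ Nat.card S) :
    (∃ (E : Type) (_ : Field E) (_ : Fintype E), Fintype.card E = p ^ (2 * f) ∧
      Nonempty (S ≃* Matrix.ProjectiveSpecialLinearGroup (Fin 2) E)) ∨ (r = 5 ∧ Nat.card S ∣ 60) ∨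
      Nat.card S ∣ 2 * ((p ^ (2 * f) + 1) / Nat.gcd 2 (p ^ (2 * f) - 1)) := by
  have hrf := Fact.mk hr.prime
  have hfO := finite_omega (F := F)
  have hrodd : Odd r := hr.odd (by norm_num)
  have hrd := rd_of_pp hr (by norm_num)
  obtain ⟨s, hs⟩ := exists_prime_orderOf_dvd_card' r hrS
  have hsr : s ^ r = 1 := by rw [← hs, pow_orderOf_eq_one]
  have hs1 : s ≠ 1 := by
    rintro rfl
    rw [orderOf_one] at hs
    exact hr.prime.one_lt.ne hs
  have hxr : (ψ (1, s)) ^ r = 1 := by
    rw [← map_pow, Prod.pow_mk, hsr, one_pow]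
    exact map_one ψ
  obtain ⟨x, hx, hxr', hxc⟩ := lift_elt (proj F) proj_surjective proj_ker hrodd hxr
  have hx1 : x ≠ 1 := by
    rintro rfl
    rw [map_one] at hx
    exact hs1 (congrArg Prod.snd (hψ (hx.symm.trans (map_one ψ).symm)))
  have hcomm : ∀ a : S, ψ (a, 1) * proj F x = proj F x * ψ (a, 1) := by
    intro a
    rw [hx, ← map_mul, ← map_mul]
    simp
  have hinl : Function.Injective (ψ.comp (MonoidHom.inl S S)) := fun a b hab => congrArg Prod.fst (hψ hab)
  by_cases h4 : finrank F (cm (rho F x)) = 4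
  · exact struct_four hr hp hf hF hrP hS hna (ψ.comp (MonoidHom.inl S S)) hinl hrS hxr' h4 hcomm
  · have hwr : (rho F x) ^ r = 1 := by rw [← map_pow, hxr', map_one]
    have h8 : finrank F (cm (rho F x)) = 2 * 4 := by
      have h1 := hrd.dvd_cm hwr
      have h2 := hrd.le_cm hwr (fun h => hx1 (rho_injective (by rw [h, map_one])))
      have h3 := H951.finrank_fx_add_cm hrd.ne0 hwr
      rw [Module.finrank_fintype_fun_eq_card, card8] at h3
      omega
    have hker : (proj F).ker = center (Cfsg.Omega F (Cfsg.quadFormPlus 4 F)) := QuotientGroup.ker_mk' _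
    rcases H946.DK.dk_lin hp hF (n := 4) (by norm_num) hrP (V := Fin 4 ⊕ Fin 4 → F) (by
        rw [Module.finrank_fintype_fun_eq_card, card8]; norm_num) (proj F) proj_surjective hker.le
        (not_dvd_ker hr.prime hrodd) (rho F) rho_injective (fun k hk => ker_scalar hk)
        (B := fun u v => polar (LieClassical.QuadForms.plusForm 4 F) u v)
        (fun u v w => polar_add_left _ _ _ _) (fun u v w => polar_add_right _ _ _ _)
        (fun u hu => by
          by_contra hcon
          push Not at hcon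
          exact hu (H955.nondeg_plus 4 u hcon))
        (fun g u v => polar_isom (rho_iso g) u v) hxr' h8 (fun h => hna ⟨⟨h⟩⟩) (ψ.comp (MonoidHom.inl S S)) hinl
        hcomm hrS with ⟨E, hE1, hE2, hE3, he⟩ | ⟨h5, ⟨e⟩⟩
    · left
      refine ⟨E, hE1, hE2, ?_, he⟩
      have h6 : Fintype.card E ^ 2 = (p ^ (2 * f)) ^ 2 := by
        rw [hE3, ← pow_mul]
        congr 1
        omega
      exact Nat.pow_left_injective (n := 2) (by norm_num) h6
    · right
      left
      refine ⟨h5, ?_⟩
      rw [Nat.card_congr e.toEquiv, H946.DK.card_alt5]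

end Cfsg.Agent.H953.O8
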